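import Mathlib
import Cfsg.Agent.Solv.Frattini
import Cfsg.Agent.Fus.SmallP

/-!
# 2-groups of order at least `2^14` with small upper central series (owner: helper92)
-/

set_option autoImplicit false
set_option linter.unusedSectionVars false

namespace Cfsg.Agent.H92.U14

open Subgroup
open scoped commutatorElement

/-! ### general lemmas -/

theorem index_le_of_fun {G : Type*} [Group G] (H : Subgroup G) {α : Type*} [Finite α] (f : G → α)
    (hf : ∀ a b, f a = f b → a⁻¹ * b ∈ H) : H.index ≤ Nat.card α := by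
  refine Nat.card_le_card_of_injective (fun q : G ⧸ H => f q.out) ?_
  intro a b hab
  have h1 := hf _ _ hab
  rw [← QuotientGroup.eq] at h1
  rwa [QuotientGroup.out_eq', QuotientGroup.out_eq'] at h1

theorem mul_mem_two {G : Type*} [Group G] [Finite G] {A B : Subgroup G} (hAB : A ≤ B)
    (hc : Nat.card B = 2 * Nat.card A) {x y : G} (hx : x ∈ B) (hy : y ∈ B) (hxA : x ∉ A) (hyA : y ∉ A) :
    x * y ∈ A := by
  have h1 : (A.subgroupOf B).index = 2 := by
    have h2 := (A.subgroupOf B).card_mul_index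
    rw [Nat.card_congr (subgroupOfEquivOfLe hAB).toEquiv, hc, mul_comm] at h2
    exact Nat.eq_of_mul_eq_mul_right Nat.card_pos h2
  have h3 := (Subgroup.mul_mem_iff_of_index_two h1 (a := ⟨x, hx⟩) (b := ⟨y, hy⟩)).2 (by
    rw [mem_subgroupOf, mem_subgroupOf]
    exact iff_of_false hxA hyA)
  exact mem_subgroupOf.1 h3

/-- separating an element from a normal subgroup with abelian quotient -/
theorem exists_sep {K : Type*} [Group K] [Finite K] (Y : Subgroup K) [Y.Normal]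
    (hcomm : ∀ a b : K, ⁅a, b⁆ ∈ Y) {n : ℕ} (hn : 0 < n) (hexp : ∀ k : K, k ^ n ∈ Y) {φ : K} (hφ : φ ∉ Y) :
    ∃ U : Subgroup K, Y ≤ U ∧ φ ∉ U ∧ U.index ≤ n := by
  let _ : CommGroup (K ⧸ Y) := { (inferInstance : Group (K ⧸ Y)) with
    mul_comm := by
      intro a b
      obtain ⟨a, rfl⟩ := QuotientGroup.mk_surjective a
      obtain ⟨b, rfl⟩ := QuotientGroup.mk_surjective b
      rw [← QuotientGroup.mk_mul, ← QuotientGroup.mk_mul, QuotientGroup.eq]
      have h1 := hcomm b⁻¹ a⁻¹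
      rw [commutatorElement_def, inv_inv, inv_inv] at h1
      rw [mul_inv_rev, ← mul_assoc]
      exact h1 }
  have hφ' : (QuotientGroup.mk φ : K ⧸ Y) ≠ 1 := fun h => hφ ((QuotientGroup.eq_one_iff φ).1 h)
  obtain ⟨χ, hχ⟩ := CommGroup.exists_apply_ne_one_of_hasEnoughRootsOfUnity (K ⧸ Y) ℂ hφ'
  refine ⟨(χ.comp (QuotientGroup.mk' Y)).ker, ?_, ?_, ?_⟩
  · intro y hy
    rw [MonoidHom.mem_ker]
    show χ (QuotientGroup.mk y) = 1
    rw [(QuotientGroup.eq_one_iff y).2 hy, map_one]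
  · rw [MonoidHom.mem_ker]
    exact hχ
  · rw [Subgroup.index_ker]
    have hfin : Finite (χ.comp (QuotientGroup.mk' Y)).range :=
      Set.finite_range (χ.comp (QuotientGroup.mk' Y))
    have hcyc : IsCyclic (χ.comp (QuotientGroup.mk' Y)).range := inferInstance
    have h1 : Monoid.exponent (χ.comp (QuotientGroup.mk' Y)).range ∣ n := by
      apply Monoid.exponent_dvd_of_forall_pow_eq_one
      rintro ⟨_, k, rfl⟩
      apply Subtype.ext
      show (χ.comp (QuotientGroup.mk' Y)) k ^ n = 1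
      rw [← map_pow]
      show χ (QuotientGroup.mk (k ^ n)) = 1
      rw [(QuotientGroup.eq_one_iff _).2 (hexp k), map_one]
    rw [IsCyclic.exponent_eq_card] at h1
    exact Nat.le_of_dvd hn h1

/-- separating by a homomorphism to `ZMod 2` -/
theorem exists_hom {K : Type*} [Group K] (Y : Subgroup K) [Y.Normal] (hexp : ∀ k : K, k ^ 2 ∈ Y) {φ : K}
    (hφ : φ ∉ Y) : ∃ f : K → ZMod 2, (∀ a b, f (a * b) = f a + f b) ∧ (∀ y ∈ Y, f y = 0) ∧ f φ = 1 := by
  have hsq : ∀ x : K ⧸ Y, x ^ 2 = 1 := by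
    intro x
    obtain ⟨a, rfl⟩ := QuotientGroup.mk_surjective x
    rw [← QuotientGroup.mk_pow]
    exact (QuotientGroup.eq_one_iff _).2 (hexp a)
  let _ : CommGroup (K ⧸ Y) := { (inferInstance : Group (K ⧸ Y)) with
    mul_comm := by
      intro a b
      have h1 := hsq (a * b)
      have h2 := hsq a
      have h3 := hsq b
      rw [sq] at h1 h2 h3
      have ha : a⁻¹ = a := inv_eq_of_mul_eq_one_right h2
      have hb : b⁻¹ = b := inv_eq_of_mul_eq_one_right h3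
      have hab : (a * b)⁻¹ = a * b := inv_eq_of_mul_eq_one_right h1
      rw [← hab, mul_inv_rev, ha, hb] }
  let _ : Module (ZMod 2) (Additive (K ⧸ Y)) := AddCommGroup.zmodModule (n := 2) (fun x => by
    show Additive.ofMul (Additive.toMul x ^ 2) = 0
    rw [hsq]
    rfl)
  have hφ' : (Additive.ofMul (QuotientGroup.mk φ : K ⧸ Y)) ≠ 0 := fun h => hφ ((QuotientGroup.eq_one_iff φ).1 h)
  have h1 : ¬ ∀ ℓ : Module.Dual (ZMod 2) (Additive (K ⧸ Y)), ℓ (Additive.ofMul (QuotientGroup.mk φ : K ⧸ Y)) = 0 :=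
    fun h => hφ' ((Module.forall_dual_apply_eq_zero_iff (ZMod 2) _).1 h)
  push Not at h1
  obtain ⟨ℓ, hℓ⟩ := h1
  refine ⟨fun k => ℓ (Additive.ofMul (QuotientGroup.mk k : K ⧸ Y)), ?_, ?_, ?_⟩
  · intro a b
    show ℓ (Additive.ofMul (QuotientGroup.mk (a * b) : K ⧸ Y)) = _
    rw [QuotientGroup.mk_mul, ofMul_mul, map_add]
  · intro y hy
    show ℓ (Additive.ofMul (QuotientGroup.mk y : K ⧸ Y)) = 0
    rw [(QuotientGroup.eq_one_iff y).2 hy, ofMul_one, map_zero]
  · have : ∀ x : ZMod 2, x ≠ 0 → x = 1 := by decide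
    exact this _ hℓ

/-! ### the upper central series -/

section series

/-- the upper central series -/
abbrev ZZ (T : Type*) [Group T] (n : ℕ) : Subgroup T := Subgroup.upperCentralSeries T n

variable {T : Type*} [Group T]

theorem mem_ZZ_succ {n : ℕ} {x : T} : x ∈ ZZ T (n + 1) ↔ ∀ y : T, ⁅x, y⁆ ∈ ZZ T n :=
  Subgroup.mem_upperCentralSeries_succ_iff

theorem ZZ_zero : ZZ T 0 = ⊥ := Subgroup.upperCentralSeries_zero T

theorem ZZ_mono {n m : ℕ} (h : n ≤ m) : ZZ T n ≤ ZZ T m := Subgroup.upperCentralSeries_mono T h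

theorem ucs_stab {n : ℕ} (h : ZZ T (n + 1) = ZZ T n) :
    ∀ m, n ≤ m → ZZ T m = ZZ T n := by
  intro m hm
  induction m, hm using Nat.le_induction with
  | base => rfl
  | succ m hm ih =>
    rw [← h]
    ext x
    rw [mem_ZZ_succ, mem_ZZ_succ, ih]

theorem ucs_lt [Finite T] (hT : IsPGroup 2 T) {n : ℕ} (h : ZZ T n ≠ ⊤) :
    ZZ T n < ZZ T (n + 1) := by
  have : Fact (Nat.Prime 2) := ⟨Nat.prime_two⟩
  refine lt_of_le_of_ne (ZZ_mono (Nat.le_succ n)) (fun he => h ?_)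
  have hnil : Group.IsNilpotent T := hT.isNilpotent
  obtain ⟨N, hN⟩ := hnil.nilpotent'
  replace hN : ZZ T N = ⊤ := hN
  rcases le_total n N with h1 | h1
  · rw [← ucs_stab he.symm N h1, hN]
  · rw [eq_top_iff, ← hN]
    exact ZZ_mono h1

end series

/-- the hypotheses on `T` -/
structure Hyp (T : Type*) [Group T] [Finite T] : Prop where
  p : IsPGroup 2 T
  big : 2 ^ 14 ≤ Nat.card T
  z4 : Nat.card (ZZ T 4) = 16

variable {T : Type*} [Group T] [Finite T]

namespace Hyp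

theorem ne_top (h : Hyp T) {n : ℕ} (hn : n ≤ 4) : ZZ T n ≠ ⊤ := by
  intro h1
  have h2 : ZZ T 4 = ⊤ := by
    rw [eq_top_iff, ← h1]
    exact ZZ_mono hn
  have h3 := h.z4
  rw [h2, card_top] at h3
  have := h.big
  omega

theorem card_Z (h : Hyp T) {n : ℕ} (hn : n ≤ 4) : Nat.card (ZZ T n) = 2 ^ n := by
  have : Fact (Nat.Prime 2) := ⟨Nat.prime_two⟩
  have hpow : ∀ n, ∃ a, Nat.card (ZZ T n) = 2 ^ a := fun n =>
    (h.p.to_subgroup _).exists_card_eq
  choose a ha using hpow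
  have hlt : ∀ n ≤ 4, a n < a (n + 1) := by
    intro n hn
    have h1 := ucs_lt h.p (h.ne_top hn)
    have h2 : Nat.card (ZZ T n) < Nat.card (ZZ T (n + 1)) := by
      by_contra hlt
      exact h1.ne (eq_of_le_of_card_ge h1.le (not_lt.1 hlt))
    rw [ha, ha] at h2
    exact (Nat.pow_lt_pow_iff_right (by norm_num)).1 h2
  have h4 : a 4 = 4 := by
    have h1 := ha 4
    rw [h.z4] at h1
    have h2 : (2 : ℕ) ^ 4 = 2 ^ a 4 := by rw [← h1]; norm_num
    exact (Nat.pow_right_injective (le_refl 2) h2).symm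
  have e0 := hlt 0 (by norm_num)
  have e1 := hlt 1 (by norm_num)
  have e2 := hlt 2 (by norm_num)
  have e3 := hlt 3 (by norm_num)
  simp only [zero_add, Nat.reduceAdd] at e0 e1 e2 e3
  rw [ha]
  congr 1
  interval_cases n <;> omega

theorem mul_mem_Z (h : Hyp T) {n : ℕ} (hn : n < 4) {x y : T} (hx : x ∈ ZZ T (n + 1))
    (hy : y ∈ ZZ T (n + 1)) (hx' : x ∉ ZZ T n)
    (hy' : y ∉ ZZ T n) : x * y ∈ ZZ T n :=
  mul_mem_two (ZZ_mono (Nat.le_succ n))
    (by rw [h.card_Z (by omega), h.card_Z (by omega), pow_succ, mul_comm]) hx hy hx' hy'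

/-- The upper central series is the only chain of small normal subgroups. -/
theorem step (h : Hyp T) {N : Subgroup T} [hN : N.Normal] {n : ℕ} (hn : n < 4)
    (h1 : ZZ T n ≤ N) (h2 : N ≠ ZZ T n) : ZZ T (n + 1) ≤ N := by
  classical
  have : Fact (Nat.Prime 2) := ⟨Nat.prime_two⟩
  have hnil : Group.IsNilpotent T := h.p.isNilpotent
  have hex : ∃ m, ¬ N ⊓ ZZ T m ≤ ZZ T n := by
    obtain ⟨N₀, hN₀⟩ := hnil.nilpotent'
    replace hN₀ : ZZ T N₀ = ⊤ := hN₀
    refine ⟨N₀, fun h3 => h2 ?_⟩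
    rw [hN₀, inf_top_eq] at h3
    exact le_antisymm h3 h1
  obtain ⟨m, hm, hmin⟩ : ∃ m, ¬ N ⊓ ZZ T m ≤ ZZ T n ∧
      ∀ k < m, N ⊓ ZZ T k ≤ ZZ T n :=
    ⟨Nat.find hex, Nat.find_spec hex, fun k hk => not_not.1 (Nat.find_min hex hk)⟩
  obtain ⟨k, rfl⟩ : ∃ k, m = k + 1 := by
    cases m with
    | zero => exact absurd (by rw [ZZ_zero, inf_bot_eq]; exact bot_le) hm
    | succ k => exact ⟨k, rfl⟩
  obtain ⟨x, ⟨hxN, hxk⟩, hxn⟩ := Set.not_subset.1 hm
  have hx1 : x ∈ ZZ T (n + 1) := by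
    rw [mem_ZZ_succ]
    intro y
    apply hmin k (Nat.lt_succ_self k)
    refine ⟨?_, mem_ZZ_succ.1 hxk y⟩
    show ⁅x, y⁆ ∈ N
    rw [commutatorElement_def, mul_assoc, mul_assoc]
    refine mul_mem hxN ?_
    rw [← mul_assoc]
    exact hN.conj_mem _ (inv_mem hxN) y
  intro y hy
  by_cases hyn : y ∈ ZZ T n
  · exact h1 hyn
  · have h3 := h1 (h.mul_mem_Z hn hx1 hy hxn hyn)
    have h4 : y = x⁻¹ * (x * y) := by group
    rw [h4]
    exact mul_mem (inv_mem hxN) h3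

theorem eq_Z (h : Hyp T) {N : Subgroup T} [hN : N.Normal] {j : ℕ} (hj : j ≤ 4) (hc : Nat.card N = 2 ^ j) :
    N = ZZ T j := by
  have h1 : ∀ i ≤ j, ZZ T i ≤ N := by
    intro i hi
    induction i with
    | zero => rw [ZZ_zero]; exact bot_le
    | succ i ih =>
      apply h.step (by omega) (ih (by omega))
      intro h2
      rw [h2, h.card_Z (by omega)] at hc
      have := Nat.pow_right_injective (le_refl 2) hc
      omega
  symm
  apply eq_of_le_of_card_ge (h1 j le_rfl)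
  rw [hc, h.card_Z hj]

theorem exists_z (h : Hyp T) {n : ℕ} (hn : n < 4) : ∃ z, z ∈ ZZ T (n + 1) ∧ z ∉ ZZ T n := by
  by_contra hne
  push Not at hne
  exact (ucs_lt h.p (h.ne_top (by omega : n ≤ 4))).not_ge hne

theorem mem_cases (h : Hyp T) {n : ℕ} (hn : n < 4) {z : T} (hz : z ∈ ZZ T (n + 1)) (hz' : z ∉ ZZ T n) {y : T}
    (hy : y ∈ ZZ T (n + 1)) : y ∈ ZZ T n ∨ ∃ x ∈ ZZ T n, y = z * x := by
  by_cases hyn : y ∈ ZZ T n
  · exact Or.inl hyn
  · right
    refine ⟨z⁻¹ * y, h.mul_mem_Z hn (inv_mem hz) hy (fun h1 => hz' (inv_mem_iff.1 h1)) hyn, by group⟩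

theorem cent3 (h : Hyp T) {z2 z3 : T} (h2 : z2 ∈ ZZ T 2) (h2' : z2 ∉ ZZ T 1) (h3 : z3 ∈ ZZ T 3)
    (h3' : z3 ∉ ZZ T 2) {g : T} (hg2 : g * z2 = z2 * g) (hg3 : g * z3 = z3 * g) :
    g ∈ centralizer (ZZ T 3 : Set T) := by
  have e1 : ∀ y ∈ ZZ T 1, g * y = y * g := by
    intro y hy
    rw [ZZ, Subgroup.upperCentralSeries_one] at hy
    exact (mem_center_iff.1 hy g)
  have e2 : ∀ y ∈ ZZ T 2, g * y = y * g := by
    intro y hy
    rcases h.mem_cases (n := 1) (by norm_num) h2 h2' hy with h4 | ⟨x, hx, rfl⟩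
    · exact e1 y h4
    · rw [← mul_assoc, hg2, mul_assoc, e1 x hx, mul_assoc]
  rw [mem_centralizer_iff]
  intro y hy
  rcases h.mem_cases (n := 2) (by norm_num) h3 h3' hy with h4 | ⟨x, hx, rfl⟩
  · exact (e2 y h4).symm
  · calc z3 * x * g = z3 * (g * x) := by rw [mul_assoc, e2 x hx]
      _ = g * (z3 * x) := by rw [← mul_assoc, ← hg3, mul_assoc]

end Hyp

theorem comm_mem_symm {n : ℕ} {x y : T} (hx : x ∈ ZZ T (n + 1)) : ⁅y, x⁆ ∈ ZZ T n := by
  have h1 := inv_mem (mem_ZZ_succ.1 hx y)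
  rwa [commutatorElement_inv] at h1

theorem comm_eq {a b z : T} (h : ⁅a, z⁆ = ⁅b, z⁆) : a⁻¹ * b * z = z * (a⁻¹ * b) := by
  rw [commutatorElement_def, commutatorElement_def] at h
  have h1 : a * z * a⁻¹ = b * z * b⁻¹ := mul_right_cancel h
  calc a⁻¹ * b * z = a⁻¹ * (b * z * b⁻¹) * b := by group
    _ = a⁻¹ * (a * z * a⁻¹) * b := by rw [h1]
    _ = z * (a⁻¹ * b) := by group

/-- the hypotheses on `W` -/
structure HypW (T : Type*) [Group T] [Finite T] (W : Subgroup T) : Prop extends Hyp T where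
  w : W = centralizer (ZZ T 3 : Set T)
  c8 : Nat.card (frattini W) ≤ 8
  sub : ∀ U : Subgroup W, U.index ≤ 16 → frattini W ≤ U

namespace HypW

variable {W : Subgroup T}

theorem normal (h : HypW T W) : W.Normal := by
  constructor
  intro w hw t
  rw [h.w, mem_centralizer_iff] at hw ⊢
  intro y hy
  have h1 : t⁻¹ * y * t ∈ ZZ T 3 := by
    have : (ZZ T 3).Normal := inferInstance
    have h2 := this.conj_mem y hy t⁻¹
    rwa [inv_inv] at h2
  have h2 := hw _ h1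
  calc y * (t * w * t⁻¹) = t * (t⁻¹ * y * t * w) * t⁻¹ := by group
    _ = t * (w * (t⁻¹ * y * t)) * t⁻¹ := by rw [h2]
    _ = t * w * t⁻¹ * y := by group

/-- the map `T → Z₁ × Z₂` -/
noncomputable def gmap {z2 z3 : T} (h2 : z2 ∈ ZZ T 2) (h3 : z3 ∈ ZZ T 3) (t : T) : ZZ T 1 × ZZ T 2 :=
  (⟨⁅t, z2⁆, comm_mem_symm h2⟩, ⟨⁅t, z3⁆, comm_mem_symm h3⟩)

theorem gmap_eq (h : HypW T W) {z2 z3 : T} (h2 : z2 ∈ ZZ T 2) (h2' : z2 ∉ ZZ T 1) (h3 : z3 ∈ ZZ T 3)
    (h3' : z3 ∉ ZZ T 2) {a b : T} (hab : gmap h2 h3 a = gmap h2 h3 b) : a⁻¹ * b ∈ W := by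
  have e1 : ⁅a, z2⁆ = ⁅b, z2⁆ := congrArg (fun x : ZZ T 1 × ZZ T 2 => (x.1 : T)) hab
  have e2 : ⁅a, z3⁆ = ⁅b, z3⁆ := congrArg (fun x : ZZ T 1 × ZZ T 2 => (x.2 : T)) hab
  rw [h.w]
  exact h.toHyp.cent3 h2 h2' h3 h3' (comm_eq e1) (comm_eq e2)

theorem card_prod (h : HypW T W) : Nat.card (ZZ T 1 × ZZ T 2) = 8 := by
  rw [Nat.card_prod, h.toHyp.card_Z (by norm_num), h.toHyp.card_Z (by norm_num)]
  norm_num

theorem index_le (h : HypW T W) : W.index ≤ 8 := by
  obtain ⟨z2, h2, h2'⟩ := h.toHyp.exists_z (n := 1) (by norm_num)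
  obtain ⟨z3, h3, h3'⟩ := h.toHyp.exists_z (n := 2) (by norm_num)
  rw [← h.card_prod]
  exact index_le_of_fun W (gmap h2 h3) (fun a b hab => h.gmap_eq h2 h2' h3 h3' hab)

/-- the Frattini subgroup of `W` as a subgroup of `T` -/
def F (W : Subgroup T) : Subgroup T := (frattini W).map W.subtype

theorem F_le : F W ≤ W := map_subtype_le _

theorem mem_F {x : W} : (x : T) ∈ F W ↔ x ∈ frattini W := by
  constructor
  · rintro ⟨y, hy, hyx⟩
    have : y = x := Subtype.ext hyx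
    rwa [← this]
  · intro hx
    exact ⟨x, hx, rfl⟩

theorem F_normal (h : HypW T W) : (F W).Normal := by
  have := h.normal
  have : (frattini W).Characteristic := inferInstance
  exact inferInstanceAs ((frattini W).map W.subtype).Normal

theorem card_F : Nat.card (F W) = Nat.card (frattini W) :=
  card_map_of_injective W.subtype_injective

theorem sq_mem (h : HypW T W) {w : T} (hw : w ∈ W) : w ^ 2 ∈ F W := by
  have : Fact (Nat.Prime 2) := ⟨Nat.prime_two⟩
  exact ⟨⟨w, hw⟩ ^ 2, Solv.pow_mem_frattini_of_pGroup (h.p.to_subgroup W) _, rfl⟩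

theorem comm_mem (h : HypW T W) {a b : T} (ha : a ∈ W) (hb : b ∈ W) : ⁅a, b⁆ ∈ F W := by
  have : Fact (Nat.Prime 2) := ⟨Nat.prime_two⟩
  exact ⟨⁅⟨a, ha⟩, ⟨b, hb⟩⁆, Solv.commutator_le_frattini_of_pGroup (h.p.to_subgroup W)
    (commutator_mem_commutator (mem_top _) (mem_top _)), rfl⟩

theorem le_of_index (h : HypW T W) {U : Subgroup T} (hi : U.relIndex W ≤ 16) : F W ≤ U := by
  rintro _ ⟨x, hx, rfl⟩
  exact mem_subgroupOf.1 (h.sub (U.subgroupOf W) hi hx)

/-- the Frattini subgroup is central in `W` -/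
theorem F_central (h : HypW T W) {f w : T} (hf : f ∈ F W) (hw : w ∈ W) : f * w = w * f := by
  have h1 : (centralizer {w} : Subgroup T).relIndex W ≤ 16 := by
    have h2 : ((centralizer {w} : Subgroup T).subgroupOf W).index ≤ Nat.card (F W) := by
      apply index_le_of_fun _ (fun x : W => (⟨⁅(x : T), w⁆, h.comm_mem x.2 hw⟩ : F W))
      intro a b hab
      have e1 : ⁅(a : T), w⁆ = ⁅(b : T), w⁆ := congrArg (fun x : F W => (x : T)) hab
      rw [mem_subgroupOf, mem_centralizer_singleton_iff]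
      exact comm_eq e1
    have h3 := h.c8
    rw [card_F] at h2
    have h4 : (centralizer {w} : Subgroup T).relIndex W = ((centralizer {w} : Subgroup T).subgroupOf W).index := rfl
    omega
  exact mem_centralizer_singleton_iff.1 (h.le_of_index h1 hf)

theorem card_W_ge (h : HypW T W) : 2 ^ 11 ≤ Nat.card W := by
  have h1 := W.card_mul_index
  have h2 := h.index_le
  have h3 := h.big
  by_contra hlt
  have h4 : Nat.card W * W.index ≤ (2 ^ 11 - 1) * 8 := Nat.mul_le_mul (by omega) h2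
  omega

theorem exists_F (h : HypW T W) : ∃ j ≤ 3, F W = ZZ T j := by
  have : Fact (Nat.Prime 2) := ⟨Nat.prime_two⟩
  obtain ⟨j, hj⟩ := (h.p.to_subgroup (F W)).exists_card_eq
  have h1 := h.c8
  rw [← card_F, hj] at h1
  have h2 : j ≤ 3 := by
    by_contra hlt
    have : 2 ^ 4 ≤ 2 ^ j := Nat.pow_le_pow_right (by norm_num) (by omega)
    omega
  have := h.F_normal
  exact ⟨j, h2, h.toHyp.eq_Z (by omega) hj⟩

/-- the additive functional on `W` -/
structure Fun (W : Subgroup T) (fe : T → ZMod 2) (z : T) : Prop where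
  mul : ∀ a ∈ W, ∀ b ∈ W, fe (a * b) = fe a + fe b
  F : ∀ a ∈ F W, fe a = 0
  z : fe z = 1

theorem exists_fun (h : HypW T W) {z : T} (hz : z ∈ W) (hz' : z ∉ F W) : ∃ fe : T → ZMod 2, Fun W fe z := by
  classical
  have : Fact (Nat.Prime 2) := ⟨Nat.prime_two⟩
  obtain ⟨f, hf1, hf2, hf3⟩ := exists_hom (frattini W)
    (fun k => Solv.pow_mem_frattini_of_pGroup (h.p.to_subgroup W) k) (φ := ⟨z, hz⟩)
    (fun h1 => hz' (mem_F.2 h1))
  refine ⟨fun t => if ht : t ∈ W then f ⟨t, ht⟩ else 0, ?_, ?_, ?_⟩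
  · intro a ha b hb
    simp only [dif_pos ha, dif_pos hb, dif_pos (mul_mem ha hb)]
    exact hf1 ⟨a, ha⟩ ⟨b, hb⟩
  · intro a ha
    simp only [dif_pos (F_le ha)]
    exact hf2 _ (mem_F.1 ha)
  · simp only [dif_pos hz]
    exact hf3

namespace Fun

variable {fe : T → ZMod 2} {z : T}

theorem one (hf : Fun W fe z) : fe 1 = 0 := hf.F 1 (one_mem _)

theorem inv (hf : Fun W fe z) {a : T} (ha : a ∈ W) : fe a⁻¹ = fe a := by
  have h1 := hf.mul a ha a⁻¹ (inv_mem ha)
  rw [mul_inv_cancel, hf.one] at h1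
  have : ∀ x y : ZMod 2, 0 = x + y → y = x := by decide
  exact this _ _ h1

/-- conjugation by elements of `W` does not change the value -/
theorem conjW (h : HypW T W) (hf : Fun W fe z) {a w : T} (ha : a ∈ W) (hw : w ∈ W) : fe (w⁻¹ * a * w) = fe a := by
  have h1 : w⁻¹ * a * w = a * ⁅a⁻¹, w⁻¹⁆ := by rw [commutatorElement_def]; group
  rw [h1, hf.mul a ha _ (F_le (h.comm_mem (inv_mem ha) (inv_mem hw))), hf.F _ (h.comm_mem (inv_mem ha) (inv_mem hw)),
    add_zero]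

end Fun

theorem conj_mem (h : HypW T W) {w : T} (hw : w ∈ W) (t : T) : t⁻¹ * w * t ∈ W := by
  have := h.normal.conj_mem w hw t⁻¹
  rwa [inv_inv] at this

/-- Elements killed by all the conjugates of the functional. -/
theorem mem_F_of_fun (h : HypW T W) {j : ℕ} (hj : j ≤ 3) (hF : F W = ZZ T j) {fe : T → ZMod 2} {z : T}
    (hz : z ∈ ZZ T (j + 1)) (hf : Fun W fe z) {w : T} (hw : w ∈ W) (hall : ∀ t, fe (t⁻¹ * w * t) = 0) : w ∈ F W := by
  let N : Subgroup T :=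
    { carrier := {w | w ∈ W ∧ ∀ t, fe (t⁻¹ * w * t) = 0}
      mul_mem' := by
        rintro a b ⟨ha, ha'⟩ ⟨hb, hb'⟩
        refine ⟨mul_mem ha hb, fun t => ?_⟩
        have h1 : t⁻¹ * (a * b) * t = (t⁻¹ * a * t) * (t⁻¹ * b * t) := by group
        rw [h1, hf.mul _ (h.conj_mem ha t) _ (h.conj_mem hb t), ha', hb', add_zero]
      one_mem' := ⟨one_mem _, fun t => by
        have : t⁻¹ * 1 * t = 1 := by group
        rw [this, hf.one]⟩
      inv_mem' := by
        rintro a ⟨ha, ha'⟩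
        refine ⟨inv_mem ha, fun t => ?_⟩
        have h1 : t⁻¹ * a⁻¹ * t = (t⁻¹ * a * t)⁻¹ := by group
        rw [h1, hf.inv (h.conj_mem ha t), ha'] }
  have hNn : N.Normal := by
    constructor
    rintro a ⟨ha, ha'⟩ s
    refine ⟨h.normal.conj_mem a ha s, fun t => ?_⟩
    have h1 : t⁻¹ * (s * a * s⁻¹) * t = (s⁻¹ * t)⁻¹ * a * (s⁻¹ * t) := by group
    rw [h1, ha']
  have hFN : F W ≤ N := by
    intro a ha
    refine ⟨F_le ha, fun t => hf.F _ ?_⟩
    have := h.F_normal.conj_mem a ha t⁻¹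
    rwa [inv_inv] at this
  have hwN : w ∈ N := ⟨hw, hall⟩
  by_cases hN : N = ZZ T j
  · rw [hF, ← hN]; exact hwN
  · exfalso
    rw [hF] at hFN
    have h1 := h.toHyp.step (by omega) hFN hN
    have h2 := (h1 hz).2 1
    have h3 : (1 : T)⁻¹ * z * 1 = z := by group
    rw [h3, hf.z] at h2
    exact absurd h2 (by decide)

/-- the coordinates -/
noncomputable def psi (W : Subgroup T) (fe : T → ZMod 2) (w : T) (c : T ⧸ W) : ZMod 2 := fe (c.out⁻¹ * w * c.out)

theorem psi_mk (h : HypW T W) {fe : T → ZMod 2} {z : T} (hf : Fun W fe z) {w : T} (hw : w ∈ W) (t : T) :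
    psi W fe w (QuotientGroup.mk t) = fe (t⁻¹ * w * t) := by
  unfold psi
  have h1 : (QuotientGroup.mk t : T ⧸ W) = QuotientGroup.mk (QuotientGroup.mk t : T ⧸ W).out :=
    (QuotientGroup.out_eq' _).symm
  rw [QuotientGroup.eq] at h1
  set u := (QuotientGroup.mk t : T ⧸ W).out
  have h2 : u⁻¹ * w * u = (t⁻¹ * u)⁻¹ * (t⁻¹ * w * t) * (t⁻¹ * u) := by group
  rw [h2, Fun.conjW h hf (h.conj_mem hw t) h1]

theorem rel_le (h : HypW T W) {j : ℕ} (hj : j ≤ 3) (hF : F W = ZZ T j) {fe : T → ZMod 2} {z : T}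
    (hz : z ∈ ZZ T (j + 1)) (hf : Fun W fe z) : (F W).relIndex W ≤ 2 ^ W.index := by
  have h1 : ((F W).subgroupOf W).index ≤ Nat.card (T ⧸ W → ZMod 2) := by
    apply index_le_of_fun _ (fun x : W => psi W fe (x : T))
    intro a b hab
    rw [mem_subgroupOf]
    apply h.mem_F_of_fun hj hF hz hf (a⁻¹ * b).2
    intro t
    have h2 : psi W fe (a : T) (QuotientGroup.mk t) = psi W fe (b : T) (QuotientGroup.mk t) :=
      congrFun hab (QuotientGroup.mk t)
    rw [h.psi_mk hf a.2, h.psi_mk hf b.2] at h2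
    have h3 : t⁻¹ * ((a⁻¹ * b : W) : T) * t = (t⁻¹ * (a : T) * t)⁻¹ * (t⁻¹ * b * t) := by
      push_cast
      group
    rw [h3, hf.mul _ (inv_mem (h.conj_mem a.2 t)) _ (h.conj_mem b.2 t), hf.inv (h.conj_mem a.2 t), h2]
    exact CharTwo.add_self_eq_zero _
  have h2 : Nat.card (T ⧸ W → ZMod 2) = 2 ^ W.index := by
    rw [Nat.card_fun, Nat.card_zmod]
    rfl
  rw [h2] at h1
  exact h1

/-- the orders -/
theorem orders (h : HypW T W) : W.index = 8 ∧ Nat.card (F W) = 8 ∧ F W = ZZ T 3 ∧ (F W).relIndex W = 2 ^ 8 ∧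
    Nat.card W = 2 ^ 11 ∧ Nat.card T = 2 ^ 14 := by
  obtain ⟨j, hj, hF⟩ := h.exists_F
  obtain ⟨z, hz, hz'⟩ := h.toHyp.exists_z (n := j) (by omega)
  have hcF : Nat.card (F W) = 2 ^ j := by rw [hF, h.toHyp.card_Z (by omega)]
  have h8 : Nat.card (F W) ≤ 8 := by rw [card_F]; exact h.c8
  have hW := h.card_W_ge
  have hne : W ≠ ZZ T j := by
    intro h1
    rw [← hF] at h1
    rw [h1] at hW
    omega
  have := h.normal
  have hzW : z ∈ W := h.toHyp.step (by omega) (by rw [← hF]; exact F_le) hne hz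
  obtain ⟨fe, hf⟩ := h.exists_fun hzW (by rw [hF]; exact hz')
  have h1 := h.rel_le hj hF hz hf
  have h2 := h.index_le
  have h3 := W.card_mul_index
  have h4 : Nat.card (F W) * (F W).relIndex W = Nat.card W := by
    have h5 := ((F W).subgroupOf W).card_mul_index
    rw [Nat.card_congr (subgroupOfEquivOfLe F_le).toEquiv] at h5
    exact h5
  have h5 := h.big
  have h6 : (F W).relIndex W ≤ 2 ^ 8 := h1.trans (Nat.pow_le_pow_right (by norm_num) h2)
  have h7 : Nat.card W ≤ 8 * 2 ^ 8 := by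
    rw [← h4]
    exact Nat.mul_le_mul h8 h6
  have hi : W.index = 8 := by
    by_contra hlt
    have h8 : Nat.card W * W.index ≤ (8 * 2 ^ 8) * 7 := Nat.mul_le_mul h7 (by omega)
    omega
  rw [hi] at h3
  have hWc : Nat.card W = 2 ^ 11 := by omega
  have hFc : Nat.card (F W) = 8 := by
    by_contra hlt
    have h9 : Nat.card (F W) * (F W).relIndex W ≤ 7 * 2 ^ 8 := Nat.mul_le_mul (by omega) h6
    omega
  refine ⟨hi, hFc, ?_, ?_, hWc, by omega⟩
  · have : j = 3 := by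
      rw [hFc] at hcF
      exact (Nat.pow_right_injective (le_refl 2) (show (2:ℕ) ^ 3 = 2 ^ j by rw [← hcF])).symm
    rw [hF, this]
  · rw [hFc] at h4
    omega

end HypW

end Cfsg.Agent.H92.U14
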