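import Cfsg.Agent.H92.U14

/-!
# 2-groups of order at least `2^14` with small upper central series, continued (owner: helper92)
-/

set_option autoImplicit false
set_option linter.unusedSectionVars false

namespace Cfsg.Agent.H92.U14.HypW

open Subgroup
open scoped commutatorElement

variable {T : Type*} [Group T] [Finite T] {W : Subgroup T}

/-! ### the commutator subgroup -/

theorem commutator_eq (h : HypW T W) : commutator W = frattini W := by
  have : Fact (Nat.Prime 2) := ⟨Nat.prime_two⟩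
  refine le_antisymm (Solv.commutator_le_frattini_of_pGroup (h.p.to_subgroup W)) ?_
  intro φ hφ
  by_contra hn
  obtain ⟨U, -, hφU, hU⟩ := exists_sep (commutator W)
    (fun a b => commutator_mem_commutator (mem_top a) (mem_top b)) (n := 16) (by norm_num)
    (fun k => by
      have h1 := Solv.pow_mem_frattini_of_pGroup (h.p.to_subgroup W) k
      have h2 : (⟨k ^ 2, h1⟩ : frattini W) ^ 8 = 1 := by
        have h3 : Nat.card (frattini W) = 8 := by rw [← card_F]; exact h.orders.2.1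
        rw [← h3]
        exact pow_card_eq_one'
      have h3 := congrArg Subtype.val h2
      have h4 : (k ^ 2) ^ 8 = 1 := h3
      rw [← pow_mul] at h4
      rw [h4]
      exact one_mem _) hn
  exact hφU (h.sub U hU hφ)

theorem F_sq (h : HypW T W) {x : T} (hx : x ∈ F W) : x ^ 2 = 1 := by
  let E1 : Subgroup W :=
    { carrier := {x | (∀ y : W, x * y = y * x) ∧ x ^ 2 = 1}
      mul_mem' := by
        rintro a b ⟨ha, ha'⟩ ⟨hb, hb'⟩
        refine ⟨fun y => by rw [mul_assoc, hb, ← mul_assoc, ha, mul_assoc], ?_⟩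
        rw [(show Commute a b from ha b).mul_pow, ha', hb', one_mul]
      one_mem' := ⟨fun y => by rw [one_mul, mul_one], one_pow 2⟩
      inv_mem' := by
        rintro a ⟨ha, ha'⟩
        refine ⟨fun y => ?_, by rw [inv_pow, ha', inv_one]⟩
        have h1 := ha y
        rw [inv_mul_eq_iff_eq_mul, ← mul_assoc, h1, mul_assoc, mul_inv_cancel, mul_one] }
  have h1 : commutator W ≤ E1 := by
    rw [commutator_def, commutator_le]
    intro a _ b _
    have hc : ∀ u v : W, ∀ y : W, ⁅u, v⁆ * y = y * ⁅u, v⁆ := fun u v y =>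
      Subtype.ext (h.F_central (h.comm_mem u.2 v.2) y.2)
    refine ⟨hc a b, ?_⟩
    have h2 : ⁅a ^ 2, b⁆ = a * ⁅a, b⁆ * a⁻¹ * ⁅a, b⁆ := by
      rw [commutatorElement_def, commutatorElement_def, sq]; group
    have h3 : a * ⁅a, b⁆ * a⁻¹ = ⁅a, b⁆ := by rw [← hc a b a, mul_inv_cancel_right]
    rw [h3, ← sq] at h2
    rw [← h2]
    have h4 : (a ^ 2) * b = b * a ^ 2 := Subtype.ext (h.F_central (h.sq_mem a.2) b.2)
    rw [commutatorElement_def, h4]
    group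
  rw [commutator_eq h] at h1
  obtain ⟨y, hy, rfl⟩ := hx
  exact congrArg Subtype.val (h1 hy).2

theorem Z3_sq (h : HypW T W) {x : T} (hx : x ∈ ZZ T 3) : x ^ 2 = 1 := by
  rw [← h.orders.2.2.1] at hx
  exact h.F_sq hx

theorem Z3_inv (h : HypW T W) {x : T} (hx : x ∈ ZZ T 3) : x⁻¹ = x := by
  have := h.Z3_sq hx
  rw [sq] at this
  exact inv_eq_of_mul_eq_one_right this

theorem Z3_le (h : HypW T W) : ZZ T 3 ≤ W := by
  rw [← h.orders.2.2.1]
  exact F_le

theorem Z3_comm (h : HypW T W) {x y : T} (hx : x ∈ ZZ T 3) (hy : y ∈ ZZ T 3) : x * y = y * x := by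
  have h1 := h.Z3_le hx
  rw [h.w, mem_centralizer_iff] at h1
  exact (h1 y hy).symm

/-! ### the action on `Z₃` -/

theorem gmap_surj (h : HypW T W) {z2 z3 : T} (h2 : z2 ∈ ZZ T 2) (h2' : z2 ∉ ZZ T 1) (h3 : z3 ∈ ZZ T 3)
    (h3' : z3 ∉ ZZ T 2) {a b : T} (ha : a ∈ ZZ T 1) (hb : b ∈ ZZ T 2) : ∃ t : T, ⁅t, z2⁆ = a ∧ ⁅t, z3⁆ = b := by
  have hinj : Function.Injective (fun q : T ⧸ W => gmap h2 h3 q.out) := by
    intro q r hqr
    have h1 := h.gmap_eq h2 h2' h3 h3' hqr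
    rw [← QuotientGroup.eq] at h1
    rwa [QuotientGroup.out_eq', QuotientGroup.out_eq'] at h1
  have hcard : Nat.card (T ⧸ W) = Nat.card (ZZ T 1 × ZZ T 2) := by
    rw [h.card_prod]
    exact h.orders.1
  have hbij := (Nat.bijective_iff_injective_and_card _).2 ⟨hinj, hcard⟩
  obtain ⟨q, hq⟩ := hbij.2 (⟨a, ha⟩, ⟨b, hb⟩)
  exact ⟨q.out, congrArg (fun x : ZZ T 1 × ZZ T 2 => (x.1 : T)) hq, congrArg (fun x : ZZ T 1 × ZZ T 2 => (x.2 : T)) hq⟩

theorem conj_of_comm {t z a : T} (h : ⁅t, z⁆ = a) : t * z * t⁻¹ = a * z := by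
  rw [← h, commutatorElement_def]; group

theorem mem_W_of (h : HypW T W) {z2 z3 : T} (h2 : z2 ∈ ZZ T 2) (h2' : z2 ∉ ZZ T 1) (h3 : z3 ∈ ZZ T 3)
    (h3' : z3 ∉ ZZ T 2) {g : T} (e2 : g * z2 = z2 * g) (e3 : g * z3 = z3 * g) : g ∈ W := by
  rw [h.w]
  exact h.toHyp.cent3 h2 h2' h3 h3' e2 e3

theorem Z1_central {x t : T} (hx : x ∈ ZZ T 1) : t * x = x * t := by
  rw [ZZ, Subgroup.upperCentralSeries_one] at hx
  exact mem_center_iff.1 hx t

theorem quotient (h : HypW T W) : ∃ (_ : W.Normal), Nonempty (T ⧸ W ≃* DihedralGroup 4) := by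
  have hn := h.normal
  refine ⟨hn, ?_⟩
  obtain ⟨z1, h1, h1'⟩ := h.toHyp.exists_z (n := 0) (by norm_num)
  obtain ⟨z2, h2, h2'⟩ := h.toHyp.exists_z (n := 1) (by norm_num)
  obtain ⟨z3, h3, h3'⟩ := h.toHyp.exists_z (n := 2) (by norm_num)
  simp only [zero_add, Nat.reduceAdd] at h1 h2 h3
  have hz1 : z1 ≠ 1 := fun h4 => h1' (by rw [h4]; exact one_mem _)
  have m13 : z1 ∈ ZZ T 3 := ZZ_mono (by norm_num) h1
  have m23 : z2 ∈ ZZ T 3 := ZZ_mono (by norm_num) h2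
  have q1 : z1 * z1 = 1 := by rw [← sq]; exact h.Z3_sq m13
  have q2 : z2 * z2 = 1 := by rw [← sq]; exact h.Z3_sq m23
  obtain ⟨s, hs2, hs3⟩ := h.gmap_surj h2 h2' h3 h3' h1 (one_mem (ZZ T 2))
  obtain ⟨e, he2, he3⟩ := h.gmap_surj h2 h2' h3 h3' (one_mem (ZZ T 1)) h2
  have s1 : s * z1 * s⁻¹ = z1 := by rw [Z1_central h1, mul_inv_cancel_right]
  have s2 := conj_of_comm hs2
  have s3 := conj_of_comm hs3
  have e2 := conj_of_comm he2
  have e3 := conj_of_comm he3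
  rw [one_mul] at s3 e2
  have key : ∀ {g z : T}, g * z * g⁻¹ = z → g * z = z * g := fun hg => by
    rwa [mul_inv_eq_iff_eq_mul] at hg
  refine Fus.dihedral4_of_involutions (x := (QuotientGroup.mk s : T ⧸ W)) (y := (QuotientGroup.mk e : T ⧸ W)) ?_ ?_ ?_ ?_
  · exact h.orders.1
  · rw [← QuotientGroup.mk_pow, QuotientGroup.eq_one_iff]
    apply h.mem_W_of h2 h2' h3 h3'
    · apply key
      calc s ^ 2 * z2 * (s ^ 2)⁻¹ = s * (s * z2 * s⁻¹) * s⁻¹ := by rw [sq]; group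
        _ = s * (z1 * z2) * s⁻¹ := by rw [s2]
        _ = (s * z1 * s⁻¹) * (s * z2 * s⁻¹) := by group
        _ = z2 := by rw [s1, s2, ← mul_assoc, q1, one_mul]
    · apply key
      calc s ^ 2 * z3 * (s ^ 2)⁻¹ = s * (s * z3 * s⁻¹) * s⁻¹ := by rw [sq]; group
        _ = z3 := by rw [s3, s3]
  · rw [← QuotientGroup.mk_pow, QuotientGroup.eq_one_iff]
    apply h.mem_W_of h2 h2' h3 h3'
    · apply key
      calc e ^ 2 * z2 * (e ^ 2)⁻¹ = e * (e * z2 * e⁻¹) * e⁻¹ := by rw [sq]; group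
        _ = z2 := by rw [e2, e2]
    · apply key
      calc e ^ 2 * z3 * (e ^ 2)⁻¹ = e * (e * z3 * e⁻¹) * e⁻¹ := by rw [sq]; group
        _ = e * (z2 * z3) * e⁻¹ := by rw [e3]
        _ = (e * z2 * e⁻¹) * (e * z3 * e⁻¹) := by group
        _ = z3 := by rw [e2, e3, ← mul_assoc, q2, one_mul]
  · intro hcomm
    rw [← QuotientGroup.mk_mul, ← QuotientGroup.mk_mul, QuotientGroup.eq] at hcomm
    have hW : (s * e)⁻¹ * (e * s) ∈ W := hcomm
    rw [h.w, mem_centralizer_iff] at hW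
    have h4 := hW z3 h3
    -- compare the two conjugates of `z3`
    have h5 : (e * s) * z3 * (e * s)⁻¹ = (s * e) * z3 * (s * e)⁻¹ := by
      calc (e * s) * z3 * (e * s)⁻¹ = (s * e) * (((s * e)⁻¹ * (e * s)) * z3) * (e * s)⁻¹ := by group
        _ = (s * e) * (z3 * ((s * e)⁻¹ * (e * s))) * (e * s)⁻¹ := by rw [h4]
        _ = (s * e) * z3 * (s * e)⁻¹ := by group
    have h6 : (e * s) * z3 * (e * s)⁻¹ = z2 * z3 := by
      calc (e * s) * z3 * (e * s)⁻¹ = e * (s * z3 * s⁻¹) * e⁻¹ := by group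
        _ = z2 * z3 := by rw [s3, e3]
    have h7 : (s * e) * z3 * (s * e)⁻¹ = z1 * z2 * z3 := by
      calc (s * e) * z3 * (s * e)⁻¹ = s * (e * z3 * e⁻¹) * s⁻¹ := by group
        _ = s * (z2 * z3) * s⁻¹ := by rw [e3]
        _ = (s * z2 * s⁻¹) * (s * z3 * s⁻¹) := by group
        _ = z1 * z2 * z3 := by rw [s2, s3]
    rw [h6, h7] at h5
    have h8 := mul_right_cancel h5
    apply hz1
    have h9 : z1 * z2 = 1 * z2 := by rw [one_mul]; exact h8.symm
    exact mul_right_cancel h9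

/-! ### the bilinear form -/

open Classical in
/-- the functional on `Z₃` with kernel `Z₂` -/
noncomputable def chi (x : T) : ZMod 2 := if x ∈ ZZ T 2 then 0 else 1

theorem chi_mul (h : HypW T W) {x y : T} (hx : x ∈ ZZ T 3) (hy : y ∈ ZZ T 3) : chi (x * y) = chi x + chi y := by
  unfold chi
  by_cases h1 : x ∈ ZZ T 2
  · by_cases h2 : y ∈ ZZ T 2
    · rw [if_pos h1, if_pos h2, if_pos (mul_mem h1 h2)]; rfl
    · rw [if_pos h1, if_neg h2, if_neg (fun h3 => h2 ((mul_mem_cancel_left h1).1 h3))]; rfl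
  · by_cases h2 : y ∈ ZZ T 2
    · rw [if_neg h1, if_pos h2, if_neg (fun h3 => h1 ((mul_mem_cancel_right h2).1 h3))]; rfl
    · rw [if_neg h1, if_neg h2, if_pos (h.toHyp.mul_mem_Z (n := 2) (by norm_num) hx hy h1 h2)]; rfl

theorem chi_one : chi (1 : T) = 0 := by
  unfold chi
  rw [if_pos (one_mem _)]

theorem chi_conj (t x : T) : chi (t * x * t⁻¹) = chi x := by
  unfold chi
  have : (ZZ T 2).Normal := inferInstance
  have h1 : t * x * t⁻¹ ∈ ZZ T 2 ↔ x ∈ ZZ T 2 := by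
    constructor
    · intro h2
      have h3 := this.conj_mem _ h2 t⁻¹
      have h4 : t⁻¹ * (t * x * t⁻¹) * t⁻¹⁻¹ = x := by group
      rwa [h4] at h3
    · exact fun h2 => this.conj_mem _ h2 t
  by_cases h2 : x ∈ ZZ T 2
  · rw [if_pos (h1.2 h2), if_pos h2]
  · rw [if_neg (fun h3 => h2 (h1.1 h3)), if_neg h2]

theorem chi_inv (x : T) : chi x⁻¹ = chi x := by
  unfold chi
  by_cases h2 : x ∈ ZZ T 2
  · rw [if_pos (inv_mem h2), if_pos h2]
  · rw [if_neg (fun h3 => h2 (inv_mem_iff.1 h3)), if_neg h2]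

theorem comm3 (h : HypW T W) {x y : T} (hx : x ∈ W) (hy : y ∈ W) : ⁅x, y⁆ ∈ ZZ T 3 := by
  rw [← h.orders.2.2.1]
  exact h.comm_mem hx hy

/-- the bilinear form -/
noncomputable def b (x y : T) : ZMod 2 := chi ⁅x, y⁆

theorem b_mul_left (h : HypW T W) {x x' y : T} (hx : x ∈ W) (hx' : x' ∈ W) (hy : y ∈ W) :
    b (x * x') y = b x y + b x' y := by
  unfold b
  have h1 : ⁅x * x', y⁆ = x * ⁅x', y⁆ * x⁻¹ * ⁅x, y⁆ := by
    rw [commutatorElement_def, commutatorElement_def, commutatorElement_def]; group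
  have h2 : x * ⁅x', y⁆ * x⁻¹ = ⁅x', y⁆ := by
    rw [← h.F_central (h.comm_mem hx' hy) hx, mul_inv_cancel_right]
  rw [h1, h2, h.chi_mul (h.comm3 hx' hy) (h.comm3 hx hy), add_comm]

theorem b_comm (x y : T) : b x y = b y x := by
  unfold b
  rw [← commutatorElement_inv y x, chi_inv]

theorem b_mul_right (h : HypW T W) {x y y' : T} (hx : x ∈ W) (hy : y ∈ W) (hy' : y' ∈ W) :
    b x (y * y') = b x y + b x y' := by
  rw [b_comm, h.b_mul_left hy hy' hx, b_comm y, b_comm y']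

theorem b_self (x : T) : b x x = 0 := by
  unfold b
  rw [commutatorElement_self, chi_one]

theorem b_F (h : HypW T W) {f y : T} (hf : f ∈ F W) (hy : y ∈ W) : b f y = 0 := by
  unfold b
  rw [commutatorElement_def, h.F_central hf hy]
  have : y * f * f⁻¹ * y⁻¹ = 1 := by group
  rw [this, chi_one]

theorem b_F' (h : HypW T W) {f y : T} (hf : f ∈ F W) (hy : y ∈ W) : b y f = 0 := by
  rw [b_comm, h.b_F hf hy]

theorem b_conj (t x y : T) : b (t * x * t⁻¹) (t * y * t⁻¹) = b x y := by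
  unfold b
  have : ⁅t * x * t⁻¹, t * y * t⁻¹⁆ = t * ⁅x, y⁆ * t⁻¹ := by
    rw [commutatorElement_def, commutatorElement_def]; group
  rw [this, chi_conj]

theorem b_inv_left (h : HypW T W) {x y : T} (hx : x ∈ W) (hy : y ∈ W) : b x⁻¹ y = b x y := by
  have h1 := h.b_mul_left hx (inv_mem hx) hy
  rw [mul_inv_cancel] at h1
  have h2 : b (1 : T) y = 0 := h.b_F (one_mem _) hy
  rw [h2] at h1
  have : ∀ u v : ZMod 2, 0 = u + v → v = u := by decide
  exact this _ _ h1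

theorem b_inv_right (h : HypW T W) {x y : T} (hx : x ∈ W) (hy : y ∈ W) : b x y⁻¹ = b x y := by
  rw [b_comm, h.b_inv_left hy hx, b_comm]

theorem conj_mem' (h : HypW T W) {w : T} (hw : w ∈ W) (t : T) : t * w * t⁻¹ ∈ W := h.normal.conj_mem w hw t

/-- conjugation by `W` does not change the values of the form -/
theorem b_conjW (h : HypW T W) {x y w : T} (hx : x ∈ W) (hy : y ∈ W) (hw : w ∈ W) : b x (w * y * w⁻¹) = b x y := by
  have h1 : w * y * w⁻¹ = ⁅w, y⁆ * y := by rw [commutatorElement_def]; group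
  rw [h1, h.b_mul_right hx (F_le (h.comm_mem hw hy)) hy, h.b_F' (h.comm_mem hw hy) hx, zero_add]

/-! ### the centraliser of `Z₂` -/

theorem sq_mem_W (h : HypW T W) {g : T} (hg : g ∈ centralizer (ZZ T 2 : Set T)) : g ^ 2 ∈ W := by
  obtain ⟨z2, h2, h2'⟩ := h.toHyp.exists_z (n := 1) (by norm_num)
  obtain ⟨z3, h3, h3'⟩ := h.toHyp.exists_z (n := 2) (by norm_num)
  simp only [Nat.reduceAdd] at h2 h3
  rw [mem_centralizer_iff] at hg
  have hg2 : ∀ q ∈ ZZ T 2, g * q * g⁻¹ = q := fun q hq => by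
    rw [← hg q hq, mul_inv_cancel_right]
  have hq : ⁅g, z3⁆ ∈ ZZ T 2 := comm_mem_symm h3
  have e3 := conj_of_comm (rfl : ⁅g, z3⁆ = ⁅g, z3⁆)
  have key : ∀ {g z : T}, g * z * g⁻¹ = z → g * z = z * g := fun hg => by
    rwa [mul_inv_eq_iff_eq_mul] at hg
  apply h.mem_W_of h2 h2' h3 h3'
  · apply key
    calc g ^ 2 * z2 * (g ^ 2)⁻¹ = g * (g * z2 * g⁻¹) * g⁻¹ := by rw [sq]; group
      _ = z2 := by rw [hg2 z2 h2, hg2 z2 h2]
  · apply key
    calc g ^ 2 * z3 * (g ^ 2)⁻¹ = g * (g * z3 * g⁻¹) * g⁻¹ := by rw [sq]; group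
      _ = g * (⁅g, z3⁆ * z3) * g⁻¹ := by rw [e3]
      _ = (g * ⁅g, z3⁆ * g⁻¹) * (g * z3 * g⁻¹) := by group
      _ = z3 := by
        rw [hg2 _ hq, e3, ← mul_assoc, ← sq, h.Z3_sq (ZZ_mono (by norm_num) hq), one_mul]

theorem W_le_E (h : HypW T W) : W ≤ centralizer (ZZ T 2 : Set T) := by
  rw [h.w]
  exact centralizer_le (ZZ_mono (by norm_num))

theorem b_E (h : HypW T W) {g w : T} (hg : g ∈ centralizer (ZZ T 2 : Set T)) (hw : w ∈ W) :
    b w (g * w * g⁻¹) = 0 := by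
  by_cases hgW : g ∈ W
  · rw [h.b_conjW hw hw hgW, b_self]
  have hgw := h.conj_mem' hw g
  have hx : ⁅w, g * w * g⁻¹⁆ ∈ ZZ T 3 := h.comm3 hw hgw
  set x := ⁅w, g * w * g⁻¹⁆ with hxdef
  have hf : ⁅g ^ 2, w⁆ ∈ F W := h.comm_mem (h.sq_mem_W hg) hw
  have h1 : g * x * g⁻¹ = x := by
    have h2 : g * x * g⁻¹ = ⁅g * w * g⁻¹, ⁅g ^ 2, w⁆ * w⁆ := by
      rw [hxdef, commutatorElement_def, commutatorElement_def, commutatorElement_def, sq]; group
    have h3 : ⁅g * w * g⁻¹, ⁅g ^ 2, w⁆ * w⁆ = ⁅g * w * g⁻¹, w⁆ := by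
      have h4 := h.F_central hf hgw
      have h5 : ∀ a f w : T, f * a = a * f → ⁅a, f * w⁆ = f * ⁅a, w⁆ * f⁻¹ := by
        intro a f w hfa
        rw [commutatorElement_def, commutatorElement_def]
        calc a * (f * w) * a⁻¹ * (f * w)⁻¹ = (a * f) * w * a⁻¹ * w⁻¹ * f⁻¹ := by group
          _ = (f * a) * w * a⁻¹ * w⁻¹ * f⁻¹ := by rw [hfa]
          _ = f * (a * w * a⁻¹ * w⁻¹) * f⁻¹ := by group
      rw [h5 _ _ _ h4, h.F_central hf (F_le (h.comm_mem hgw hw)), mul_inv_cancel_right]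
    rw [h2, h3, ← commutatorElement_inv, ← hxdef]
    exact h.Z3_inv hx
  have hx2 : x ∈ ZZ T 2 := by
    by_contra hx2
    obtain ⟨z2, h2, h2'⟩ := h.toHyp.exists_z (n := 1) (by norm_num)
    simp only [Nat.reduceAdd] at h2
    apply hgW
    apply h.mem_W_of h2 h2' hx hx2
    · exact (mem_centralizer_iff.1 hg z2 h2).symm
    · rwa [mul_inv_eq_iff_eq_mul] at h1
  show chi x = 0
  unfold chi
  rw [if_pos hx2]

end Cfsg.Agent.H92.U14.HypW
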