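import Cfsg.Agent.H92.U14b

/-!
# 2-groups of order at least `2^14` with small upper central series, the centre of `W` (owner: helper92)
-/

set_option autoImplicit false
set_option linter.unusedSectionVars false

namespace Cfsg.Agent.H92.U14.HypW

open Subgroup
open scoped commutatorElement

variable {T : Type*} [Group T] [Finite T] {W : Subgroup T}

/-! ### a generator of `W` modulo `F` -/

theorem exists_w0 (h : HypW T W) {fe : T → ZMod 2} {z : T} (hz : z ∈ ZZ T 4) (hf : Fun W fe z) :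
    ∃ w0 ∈ W, (∀ t ∈ W, fe (t⁻¹ * w0 * t) = 1) ∧ ∀ t ∉ W, fe (t⁻¹ * w0 * t) = 0 := by
  classical
  obtain ⟨hi, hFc, hF, hrel, -, -⟩ := h.orders
  have hinj : Function.Injective (fun q : W ⧸ (F W).subgroupOf W => psi W fe (q.out : T)) := by
    intro q r hqr
    have h1 : q.out⁻¹ * r.out ∈ (F W).subgroupOf W := by
      rw [mem_subgroupOf]
      apply h.mem_F_of_fun (by norm_num) hF hz hf (q.out⁻¹ * r.out).2
      intro t
      have h2 : psi W fe (q.out : T) (QuotientGroup.mk t) = psi W fe (r.out : T) (QuotientGroup.mk t) :=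
        congrFun hqr (QuotientGroup.mk t)
      rw [h.psi_mk hf q.out.2, h.psi_mk hf r.out.2] at h2
      have h3 : t⁻¹ * ((q.out⁻¹ * r.out : W) : T) * t = (t⁻¹ * (q.out : T) * t)⁻¹ * (t⁻¹ * r.out * t) := by
        push_cast
        group
      rw [h3, hf.mul _ (inv_mem (h.conj_mem q.out.2 t)) _ (h.conj_mem r.out.2 t), hf.inv (h.conj_mem q.out.2 t), h2]
      exact CharTwo.add_self_eq_zero _
    rw [← QuotientGroup.eq] at h1
    rwa [QuotientGroup.out_eq', QuotientGroup.out_eq'] at h1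
  have hcard : Nat.card (W ⧸ (F W).subgroupOf W) = Nat.card (T ⧸ W → ZMod 2) := by
    have h1 : Nat.card (T ⧸ W → ZMod 2) = 2 ^ W.index := by
      rw [Nat.card_fun, Nat.card_zmod]
      rfl
    rw [h1, hi]
    exact hrel
  have hbij := (Nat.bijective_iff_injective_and_card _).2 ⟨hinj, hcard⟩
  obtain ⟨q, hq⟩ := hbij.2 (fun c => if c = QuotientGroup.mk 1 then 1 else 0)
  refine ⟨(q.out : T), q.out.2, fun t ht => ?_, fun t ht => ?_⟩
  · have h1 : psi W fe (q.out : T) (QuotientGroup.mk t) = if (QuotientGroup.mk t : T ⧸ W) = QuotientGroup.mk 1 then 1 else 0 :=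
      congrFun hq (QuotientGroup.mk t)
    rw [h.psi_mk hf q.out.2, if_pos (QuotientGroup.eq.2 (by simpa using ht))] at h1
    exact h1
  · have h1 : psi W fe (q.out : T) (QuotientGroup.mk t) = if (QuotientGroup.mk t : T ⧸ W) = QuotientGroup.mk 1 then 1 else 0 :=
      congrFun hq (QuotientGroup.mk t)
    rw [h.psi_mk hf q.out.2, if_neg (fun h2 => ht (by simpa using QuotientGroup.eq.1 h2))] at h1
    exact h1

/-- data for the final argument -/
structure Dat (W : Subgroup T) (fe : T → ZMod 2) (z w0 : T) : Prop where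
  hz : z ∈ ZZ T 4
  hzW : z ∈ W
  f : Fun W fe z
  hw0 : w0 ∈ W
  one : ∀ t ∈ W, fe (t⁻¹ * w0 * t) = 1
  zero : ∀ t ∉ W, fe (t⁻¹ * w0 * t) = 0

section dat

variable {fe : T → ZMod 2} {z w0 : T}

/-- `W` is generated by the conjugates of `w0` and `F`. -/
theorem closure_eq (h : HypW T W) (hd : Dat W fe z w0) {L : Subgroup T} (hF : F W ≤ L)
    (hL : ∀ t : T, t * w0 * t⁻¹ ∈ L) : W ≤ L := by
  classical
  obtain ⟨-, -, hFZ, -, -, -⟩ := h.orders
  have : Fintype (T ⧸ W) := Fintype.ofFinite _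
  have key : ∀ n : ℕ, ∀ w ∈ W, (Finset.univ.filter fun c : T ⧸ W => psi W fe w c ≠ 0).card = n → w ∈ L := by
    intro n
    induction n with
    | zero =>
      intro w hw hc
      apply hF
      apply h.mem_F_of_fun (by norm_num) hFZ hd.hz hd.f hw
      intro t
      rw [← h.psi_mk hd.f hw]
      by_contra hne
      have : (QuotientGroup.mk t : T ⧸ W) ∈ (Finset.univ.filter fun c : T ⧸ W => psi W fe w c ≠ 0) :=
        Finset.mem_filter.2 ⟨Finset.mem_univ _, hne⟩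
      rw [Finset.card_eq_zero.1 hc] at this
      exact absurd this (by simp)
    | succ n ih =>
      intro w hw hc
      obtain ⟨c, hcm⟩ : (Finset.univ.filter fun c : T ⧸ W => psi W fe w c ≠ 0).Nonempty := by
        rw [← Finset.card_pos, hc]; omega
      obtain ⟨t, rfl⟩ := QuotientGroup.mk_surjective c
      have hct : psi W fe w (QuotientGroup.mk t) ≠ 0 := (Finset.mem_filter.1 hcm).2
      have htw := h.conj_mem' hd.hw0 t
      have hval : ∀ s : T, fe (s⁻¹ * (t * w0 * t⁻¹) * s) = if (QuotientGroup.mk s : T ⧸ W) = QuotientGroup.mk t then 1 else 0 := by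
        intro s
        have h1 : s⁻¹ * (t * w0 * t⁻¹) * s = (t⁻¹ * s)⁻¹ * w0 * (t⁻¹ * s) := by group
        rw [h1]
        by_cases h2 : t⁻¹ * s ∈ W
        · rw [hd.one _ h2, if_pos (QuotientGroup.eq.2 h2).symm]
        · rw [hd.zero _ h2, if_neg (fun h3 => h2 (QuotientGroup.eq.1 h3.symm))]
      have h1 : w * (t * w0 * t⁻¹) ∈ L := by
        apply ih _ (mul_mem hw htw)
        have h2 : (Finset.univ.filter fun c : T ⧸ W => psi W fe (w * (t * w0 * t⁻¹)) c ≠ 0) =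
            (Finset.univ.filter fun c : T ⧸ W => psi W fe w c ≠ 0).erase (QuotientGroup.mk t) := by
          ext c
          obtain ⟨s, rfl⟩ := QuotientGroup.mk_surjective c
          rw [Finset.mem_erase, Finset.mem_filter, Finset.mem_filter, h.psi_mk hd.f (mul_mem hw htw), h.psi_mk hd.f hw]
          have h3 : s⁻¹ * (w * (t * w0 * t⁻¹)) * s = (s⁻¹ * w * s) * (s⁻¹ * (t * w0 * t⁻¹) * s) := by group
          rw [h3, hd.f.mul _ (h.conj_mem hw s) _ (h.conj_mem htw s), hval]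
          by_cases h4 : (QuotientGroup.mk s : T ⧸ W) = QuotientGroup.mk t
          · rw [if_pos h4]
            have h5 : fe (s⁻¹ * w * s) = 1 := by
              rw [← h.psi_mk hd.f hw, h4]
              have : ∀ x : ZMod 2, x ≠ 0 → x = 1 := by decide
              exact this _ hct
            rw [h5]
            simp only [Finset.mem_univ, true_and, h4, ne_eq, not_true_eq_false, false_and, iff_false, not_not]
            decide
          · rw [if_neg h4, add_zero]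
            simp only [Finset.mem_univ, true_and, ne_eq, h4, not_false_eq_true]
        rw [h2, Finset.card_erase_of_mem hcm, hc]
        rfl
      have h2 : w = w * (t * w0 * t⁻¹) * (t * w0 * t⁻¹)⁻¹ := by group
      rw [h2]
      exact mul_mem h1 (inv_mem (hL t))
  exact fun w hw => key _ w hw rfl

/-- the values of the form on the conjugates of `w0` -/
noncomputable def beta (w0 t : T) : ZMod 2 := b w0 (t * w0 * t⁻¹)

theorem beta_E (h : HypW T W) (hd : Dat W fe z w0) {g : T} (hg : g ∈ centralizer (ZZ T 2 : Set T)) : beta w0 g = 0 :=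
  h.b_E hg hd.hw0

theorem beta_mul_right (h : HypW T W) (hd : Dat W fe z w0) {t w : T} (hw : w ∈ W) : beta w0 (t * w) = beta w0 t := by
  unfold beta
  have h1 : t * w * w0 * (t * w)⁻¹ = (t * w * t⁻¹) * (t * w0 * t⁻¹) * (t * w * t⁻¹)⁻¹ := by group
  rw [h1, h.b_conjW hd.hw0 (h.conj_mem' hd.hw0 t) (h.conj_mem' hw t)]

theorem beta_mul_left (h : HypW T W) (hd : Dat W fe z w0) {t w : T} (hw : w ∈ W) : beta w0 (w * t) = beta w0 t := by
  have h1 : w * t = t * (t⁻¹ * w * t) := by group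
  rw [h1, h.beta_mul_right hd (h.conj_mem hw t)]

theorem mem_E_of (h : HypW T W) {x y : T} (hx : x ∉ centralizer (ZZ T 2 : Set T))
    (hy : y ∉ centralizer (ZZ T 2 : Set T)) : x⁻¹ * y ∈ centralizer (ZZ T 2 : Set T) := by
  obtain ⟨z2, h2, h2'⟩ := h.toHyp.exists_z (n := 1) (by norm_num)
  obtain ⟨z1, h1, h1'⟩ := h.toHyp.exists_z (n := 0) (by norm_num)
  simp only [zero_add, Nat.reduceAdd] at h1 h2
  have hmem : ∀ g : T, g * z2 = z2 * g → g ∈ centralizer (ZZ T 2 : Set T) := by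
    intro g hg
    rw [mem_centralizer_iff]
    intro q hq
    rcases h.toHyp.mem_cases (n := 1) (by norm_num) h2 h2' hq with h3 | ⟨p, hp, rfl⟩
    · exact (Z1_central h3).symm
    · calc z2 * p * g = z2 * (g * p) := by rw [mul_assoc, ← Z1_central hp]
        _ = g * (z2 * p) := by rw [← mul_assoc, ← hg, mul_assoc]
  have hv : ∀ g : T, g ∉ centralizer (ZZ T 2 : Set T) → ⁅g, z2⁆ = z1 := by
    intro g hg
    have h3 : ⁅g, z2⁆ ∈ ZZ T 1 := comm_mem_symm h2
    rcases h.toHyp.mem_cases (n := 0) (by norm_num) h1 h1' h3 with h4 | ⟨p, hp, hp'⟩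
    · exfalso
      rw [ZZ_zero, mem_bot] at h4
      exact hg (hmem g (commutatorElement_eq_one_iff_mul_comm.1 h4))
    · rw [ZZ_zero, mem_bot] at hp
      rw [hp', hp, mul_one]
  exact hmem _ (comm_eq ((hv x hx).trans (hv y hy).symm))

/-- cosets of `W` in `E` -/
theorem coset_sum (h : HypW T W) {e1 e2 x : T} (he1 : e1 ∈ centralizer (ZZ T 2 : Set T))
    (he2 : e2 ∈ centralizer (ZZ T 2 : Set T)) (hx : x ∈ centralizer (ZZ T 2 : Set T)) (n1 : e1 ∉ W) (n2 : e2 ∉ W)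
    (n12 : e1 * e2 ∉ W) (δ : T → ZMod 2) (hδ1 : ∀ t ∈ W, δ t = 1) (hδ0 : ∀ t ∉ W, δ t = 0) :
    δ x + δ (e1⁻¹ * x) + δ (e2⁻¹ * x) + δ ((e1 * e2)⁻¹ * x) = 1 := by
  classical
  obtain ⟨z2, h2, h2'⟩ := h.toHyp.exists_z (n := 1) (by norm_num)
  obtain ⟨z3, h3, h3'⟩ := h.toHyp.exists_z (n := 2) (by norm_num)
  simp only [Nat.reduceAdd] at h2 h3
  let κ : T → ZZ T 2 := fun t => ⟨⁅t, z3⁆, comm_mem_symm h3⟩
  have hκ : ∀ s ∈ centralizer (ZZ T 2 : Set T), ∀ t ∈ centralizer (ZZ T 2 : Set T), (κ s = κ t ↔ s⁻¹ * t ∈ W) := by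
    intro s hs t ht
    constructor
    · intro hst
      have e3 : ⁅s, z3⁆ = ⁅t, z3⁆ := congrArg Subtype.val hst
      apply h.mem_W_of h2 h2' h3 h3' _ (comm_eq e3)
      exact (mem_centralizer_iff.1 (mul_mem (inv_mem hs) ht) z2 h2).symm
    · intro hst
      apply Subtype.ext
      show ⁅s, z3⁆ = ⁅t, z3⁆
      rw [h.w, mem_centralizer_iff] at hst
      have h4 := hst z3 h3
      have h5 : s⁻¹ * t * z3 * (s⁻¹ * t)⁻¹ = z3 := by rw [← h4, mul_inv_cancel_right]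
      rw [commutatorElement_def, commutatorElement_def]
      have h6 : t * z3 * t⁻¹ = s * z3 * s⁻¹ := by
        calc t * z3 * t⁻¹ = s * (s⁻¹ * t * z3 * (s⁻¹ * t)⁻¹) * s⁻¹ := by group
          _ = s * z3 * s⁻¹ := by rw [h5]
      rw [h6]
  have hone : (1 : T) ∈ centralizer (ZZ T 2 : Set T) := one_mem _
  have he12 := mul_mem he1 he2
  have sq : ∀ g ∈ centralizer (ZZ T 2 : Set T), g * g ∈ W := fun g hg => by
    rw [← _root_.sq]; exact h.sq_mem_W hg
  -- the four classes are distinct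
  have d1 : κ 1 ≠ κ e1 := fun hh => n1 (by simpa using (hκ 1 hone e1 he1).1 hh)
  have d2 : κ 1 ≠ κ e2 := fun hh => n2 (by simpa using (hκ 1 hone e2 he2).1 hh)
  have d3 : κ 1 ≠ κ (e1 * e2) := fun hh => n12 (by simpa using (hκ 1 hone _ he12).1 hh)
  have d4 : κ e1 ≠ κ e2 := fun hh => by
    have h4 := (hκ e1 he1 e2 he2).1 hh
    apply n12
    have h5 : e1 * e2 = e1 * e1 * (e1⁻¹ * e2) := by group
    rw [h5]
    exact mul_mem (sq e1 he1) h4
  have d5 : κ e1 ≠ κ (e1 * e2) := fun hh => by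
    have h4 := (hκ e1 he1 _ he12).1 hh
    apply n2
    have h5 : e1⁻¹ * (e1 * e2) = e2 := by group
    rwa [h5] at h4
  have d6 : κ e2 ≠ κ (e1 * e2) := fun hh => by
    have h4 := (hκ e2 he2 _ he12).1 hh
    apply n1
    have h5 := h.conj_mem' h4 e2
    have h6 : e2 * (e2⁻¹ * (e1 * e2)) * e2⁻¹ = e1 := by group
    rwa [h6] at h5
  have hcov : κ x = κ 1 ∨ κ x = κ e1 ∨ κ x = κ e2 ∨ κ x = κ (e1 * e2) := by
    by_contra hn
    push Not at hn
    obtain ⟨a1, a2, a3, a4⟩ := hn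
    have hc : ({κ x, κ 1, κ e1, κ e2, κ (e1 * e2)} : Finset (ZZ T 2)).card = 5 := by
      rw [Finset.card_insert_of_notMem, Finset.card_insert_of_notMem, Finset.card_insert_of_notMem,
        Finset.card_insert_of_notMem, Finset.card_singleton]
      · simpa using d6
      · simp [d4, d5]
      · simp [d1, d2, d3]
      · simp [a1, a2, a3, a4]
    have : Fintype (ZZ T 2) := Fintype.ofFinite _
    have h4 := Finset.card_le_univ ({κ x, κ 1, κ e1, κ e2, κ (e1 * e2)} : Finset (ZZ T 2))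
    rw [hc, ← Nat.card_eq_fintype_card, h.toHyp.card_Z (by norm_num)] at h4
    norm_num at h4
  have v1 : δ x = if κ x = κ 1 then 1 else 0 := by
    by_cases h4 : κ 1 = κ x
    · rw [if_pos h4.symm, hδ1]
      simpa using (hκ 1 hone x hx).1 h4
    · rw [if_neg (fun h5 => h4 h5.symm), hδ0]
      intro h5
      exact h4 ((hκ 1 hone x hx).2 (by simpa using h5))
  have v : ∀ e ∈ centralizer (ZZ T 2 : Set T), δ (e⁻¹ * x) = if κ x = κ e then 1 else 0 := by
    intro e he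
    by_cases h4 : κ e = κ x
    · rw [if_pos h4.symm, hδ1 _ ((hκ e he x hx).1 h4)]
    · rw [if_neg (fun h5 => h4 h5.symm), hδ0 _ (fun h5 => h4 ((hκ e he x hx).2 h5))]
  rw [v1, v e1 he1, v e2 he2, v _ he12]
  rcases hcov with h4 | h4 | h4 | h4
  · rw [if_pos h4, if_neg (fun h5 => d1 (h4.symm.trans h5)), if_neg (fun h5 => d2 (h4.symm.trans h5)),
      if_neg (fun h5 => d3 (h4.symm.trans h5))]
    decide
  · rw [if_neg (fun h5 => d1 (h5.symm.trans h4)), if_pos h4, if_neg (fun h5 => d4 (h4.symm.trans h5)),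
      if_neg (fun h5 => d5 (h4.symm.trans h5))]
    decide
  · rw [if_neg (fun h5 => d2 (h5.symm.trans h4)), if_neg (fun h5 => d4 (h5.symm.trans h4)), if_pos h4,
      if_neg (fun h5 => d6 (h4.symm.trans h5))]
    decide
  · rw [if_neg (fun h5 => d3 (h5.symm.trans h4)), if_neg (fun h5 => d5 (h5.symm.trans h4)),
      if_neg (fun h5 => d6 (h5.symm.trans h4)), if_pos h4]
    decide

theorem fe_conj_z (h : HypW T W) (hd : Dat W fe z w0) (s : T) : fe (s⁻¹ * z * s) = 1 := by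
  have h1 : s⁻¹ * z * s = z * ⁅z⁻¹, s⁻¹⁆ := by rw [commutatorElement_def]; group
  have h2 : ⁅z⁻¹, s⁻¹⁆ ∈ F W := by
    rw [h.orders.2.2.1]
    exact mem_ZZ_succ.1 (inv_mem hd.hz) s⁻¹
  rw [h1, hd.f.mul _ hd.hzW _ (F_le h2), hd.f.F _ h2, hd.f.z, add_zero]

theorem beta_sum (h : HypW T W) (hd : Dat W fe z w0) (hzb : b w0 z = 0) {e1 e2 r : T}
    (he1 : e1 ∈ centralizer (ZZ T 2 : Set T)) (he2 : e2 ∈ centralizer (ZZ T 2 : Set T))
    (hr : r ∉ centralizer (ZZ T 2 : Set T)) (n1 : e1 ∉ W) (n2 : e2 ∉ W) (n12 : e1 * e2 ∉ W) :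
    beta w0 r + beta w0 (e1 * r) + beta w0 (e2 * r) + beta w0 (e1 * e2 * r) = 0 := by
  have hc : ∀ d : T, d * w0 * d⁻¹ ∈ W := fun d => h.conj_mem' hd.hw0 d
  have he12 := mul_mem he1 he2
  have hG : ∀ s a c : T, a ∈ W → c ∈ W → fe (s⁻¹ * (a * c) * s) = fe (s⁻¹ * a * s) + fe (s⁻¹ * c * s) := by
    intro s a c ha hc'
    have h1 : s⁻¹ * (a * c) * s = (s⁻¹ * a * s) * (s⁻¹ * c * s) := by group
    rw [h1, hd.f.mul _ (h.conj_mem ha s) _ (h.conj_mem hc' s)]
  have hδ : ∀ s d : T, fe (s⁻¹ * (d * w0 * d⁻¹) * s) = fe ((d⁻¹ * s)⁻¹ * w0 * (d⁻¹ * s)) := by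
    intro s d
    congr 1
    group
  set c1 := (1 : T) * w0 * (1 : T)⁻¹ with hc1
  set c2 := e1 * w0 * e1⁻¹ with hc2
  set c3 := e2 * w0 * e2⁻¹ with hc3
  set c4 := (e1 * e2) * w0 * (e1 * e2)⁻¹ with hc4
  set c5 := r * w0 * r⁻¹ with hc5
  set c6 := (e1 * r) * w0 * (e1 * r)⁻¹ with hc6
  set c7 := (e2 * r) * w0 * (e2 * r)⁻¹ with hc7
  set c8 := (e1 * e2 * r) * w0 * (e1 * e2 * r)⁻¹ with hc8
  have m1 : c1 ∈ W := hc 1
  have m2 : c2 ∈ W := hc _
  have m3 : c3 ∈ W := hc _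
  have m4 : c4 ∈ W := hc _
  have m5 : c5 ∈ W := hc _
  have m6 : c6 ∈ W := hc _
  have m7 : c7 ∈ W := hc _
  have m8 : c8 ∈ W := hc _
  have p2 : c1 * c2 ∈ W := mul_mem m1 m2
  have p3 : c1 * c2 * c3 ∈ W := mul_mem p2 m3
  have p4 : c1 * c2 * c3 * c4 ∈ W := mul_mem p3 m4
  have p5 : c1 * c2 * c3 * c4 * c5 ∈ W := mul_mem p4 m5
  have p6 : c1 * c2 * c3 * c4 * c5 * c6 ∈ W := mul_mem p5 m6
  have p7 : c1 * c2 * c3 * c4 * c5 * c6 * c7 ∈ W := mul_mem p6 m7
  have p8 : c1 * c2 * c3 * c4 * c5 * c6 * c7 * c8 ∈ W := mul_mem p7 m8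
  have p9 : c1 * c2 * c3 * c4 * c5 * c6 * c7 * c8 * z ∈ W := mul_mem p8 hd.hzW
  have hF : c1 * c2 * c3 * c4 * c5 * c6 * c7 * c8 * z ∈ F W := by
    apply h.mem_F_of_fun (by norm_num) h.orders.2.2.1 hd.hz hd.f p9
    intro s
    rw [hG s _ _ p8 hd.hzW, hG s _ _ p7 m8, hG s _ _ p6 m7, hG s _ _ p5 m6, hG s _ _ p4 m5, hG s _ _ p3 m4,
      hG s _ _ p2 m3, hG s _ _ m1 m2, h.fe_conj_z hd]
    have k1 : fe (s⁻¹ * c1 * s) = fe (((1 : T)⁻¹ * s)⁻¹ * w0 * ((1 : T)⁻¹ * s)) := hδ s 1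
    rw [k1, hc2, hc3, hc4, hc5, hc6, hc7, hc8, hδ, hδ, hδ, hδ, hδ, hδ, hδ]
    by_cases hs : s ∈ centralizer (ZZ T 2 : Set T)
    · have z5 : ∀ e ∈ centralizer (ZZ T 2 : Set T), fe (((e * r)⁻¹ * s)⁻¹ * w0 * ((e * r)⁻¹ * s)) = 0 := by
        intro e he
        apply hd.zero
        intro h5
        apply hr
        have h6 := h.W_le_E h5
        have h7 : r = (e⁻¹ * s) * ((e * r)⁻¹ * s)⁻¹ := by group
        rw [h7]
        exact mul_mem (mul_mem (inv_mem he) hs) (inv_mem h6)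
      have z5' : fe ((r⁻¹ * s)⁻¹ * w0 * (r⁻¹ * s)) = 0 := by
        have := z5 1 (one_mem _)
        rwa [one_mul] at this
      rw [z5', z5 e1 he1, z5 e2 he2, z5 _ he12]
      have h6 := h.coset_sum he1 he2 hs n1 n2 n12 (fun x => fe (x⁻¹ * w0 * x)) hd.one hd.zero
      have h7 : (1 : T)⁻¹ * s = s := by group
      rw [h7]
      rw [add_zero, add_zero, add_zero, add_zero, h6]
      decide
    · have z5 : ∀ e ∈ centralizer (ZZ T 2 : Set T), fe ((e⁻¹ * s)⁻¹ * w0 * (e⁻¹ * s)) = 0 := by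
        intro e he
        apply hd.zero
        intro h5
        apply hs
        have h6 := h.W_le_E h5
        have h7 : s = e * (e⁻¹ * s) := by group
        rw [h7]
        exact mul_mem he h6
      rw [z5 1 (one_mem _), z5 e1 he1, z5 e2 he2, z5 _ he12]
      -- rewrite the remaining terms
      have hx : s * r⁻¹ ∈ centralizer (ZZ T 2 : Set T) := by
        have h6 := h.mem_E_of (x := s⁻¹) (y := r⁻¹) (fun h7 => hs (inv_mem_iff.1 h7)) (fun h7 => hr (inv_mem_iff.1 h7))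
        rwa [inv_inv] at h6
      have hv : ∀ e : T, fe (((e * r)⁻¹ * s)⁻¹ * w0 * ((e * r)⁻¹ * s)) =
          fe ((e⁻¹ * (s * r⁻¹))⁻¹ * w0 * (e⁻¹ * (s * r⁻¹))) := by
        intro e
        have h6 : e⁻¹ * (s * r⁻¹) = r * ((e * r)⁻¹ * s) * r⁻¹ := by group
        by_cases h7 : (e * r)⁻¹ * s ∈ W
        · rw [hd.one _ h7, hd.one]
          rw [h6]
          exact h.conj_mem' h7 r
        · rw [hd.zero _ h7, hd.zero]
          intro h8
          apply h7
          rw [h6] at h8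
          have h9 := h.conj_mem h8 r
          have h10 : r⁻¹ * (r * ((e * r)⁻¹ * s) * r⁻¹) * r = (e * r)⁻¹ * s := by group
          rwa [h10] at h9
      have hv1 : fe ((r⁻¹ * s)⁻¹ * w0 * (r⁻¹ * s)) = fe ((s * r⁻¹)⁻¹ * w0 * (s * r⁻¹)) := by
        have h6 := hv 1
        rwa [one_mul, inv_one, one_mul] at h6
      have h6 := h.coset_sum he1 he2 hx n1 n2 n12 (fun x => fe (x⁻¹ * w0 * x)) hd.one hd.zero
      rw [hv1, hv e1, hv e2, hv (e1 * e2), add_zero, add_zero, add_zero, zero_add, h6]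
      decide
  have h1 := h.b_F' hF hd.hw0
  rw [h.b_mul_right hd.hw0 p8 hd.hzW, h.b_mul_right hd.hw0 p7 m8, h.b_mul_right hd.hw0 p6 m7,
    h.b_mul_right hd.hw0 p5 m6, h.b_mul_right hd.hw0 p4 m5, h.b_mul_right hd.hw0 p3 m4,
    h.b_mul_right hd.hw0 p2 m3, h.b_mul_right hd.hw0 m1 m2, hzb] at h1
  have k1 : b w0 c1 = 0 := h.b_E (one_mem _) hd.hw0
  have k2 : b w0 c2 = 0 := h.b_E he1 hd.hw0
  have k3 : b w0 c3 = 0 := h.b_E he2 hd.hw0
  have k4 : b w0 c4 = 0 := h.b_E he12 hd.hw0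
  rw [k1, k2, k3, k4, add_zero, add_zero, add_zero, add_zero, zero_add] at h1
  exact h1

theorem beta_four (h : HypW T W) (hd : Dat W fe z w0) (hzb : b w0 z = 0) {e1 e2 : T} (r : T)
    (he1 : e1 ∈ centralizer (ZZ T 2 : Set T)) (he2 : e2 ∈ centralizer (ZZ T 2 : Set T)) :
    beta w0 (e1 * e2 * r) + beta w0 (e1 * r) + beta w0 (e2 * r) + beta w0 r = 0 := by
  have hz2 : ∀ x y : ZMod 2, x + y + x + y = 0 := by decide
  have hz3 : ∀ x y : ZMod 2, x + x + y + y = 0 := by decide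
  have hz4 : ∀ x y : ZMod 2, x + y + y + x = 0 := by decide
  by_cases hr : r ∈ centralizer (ZZ T 2 : Set T)
  · rw [h.beta_E hd (mul_mem (mul_mem he1 he2) hr), h.beta_E hd (mul_mem he1 hr), h.beta_E hd (mul_mem he2 hr),
      h.beta_E hd hr]
    decide
  by_cases n1 : e1 ∈ W
  · rw [mul_assoc, h.beta_mul_left hd n1, h.beta_mul_left hd n1]
    exact hz2 _ _
  by_cases n2 : e2 ∈ W
  · have h1 : e1 * e2 * r = e1 * r * (r⁻¹ * e2 * r) := by group
    rw [h1, h.beta_mul_right hd (h.conj_mem n2 r), h.beta_mul_left hd n2]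
    exact hz3 _ _
  by_cases n12 : e1 * e2 ∈ W
  · rw [h.beta_mul_left hd n12]
    have h2 : e1 * r = (e1 * e2 * (e2 * e2)⁻¹) * (e2 * r) := by group
    have h3 : e2 * e2 ∈ W := by rw [← sq]; exact h.sq_mem_W he2
    rw [h2, h.beta_mul_left hd (mul_mem n12 (inv_mem h3))]
    exact hz4 _ _
  · have h1 := h.beta_sum hd hzb he1 he2 hr n1 n2 n12
    have h4 : ∀ x y u v : ZMod 2, x + y + u + v = 0 → v + y + u + x = 0 := by decide
    exact h4 _ _ _ _ h1

theorem b_cc (t t' : T) : b (t * w0 * t⁻¹) (t' * w0 * t'⁻¹) = beta w0 (t⁻¹ * t') := by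
  unfold beta
  rw [← b_conj t w0 (t⁻¹ * t' * w0 * (t⁻¹ * t')⁻¹)]
  congr 1
  group

theorem E_normal : (centralizer (ZZ T 2 : Set T)).Normal := by
  constructor
  intro w hw t
  rw [mem_centralizer_iff] at hw ⊢
  intro y hy
  have h1 : t⁻¹ * y * t ∈ ZZ T 2 := by
    have : (ZZ T 2).Normal := inferInstance
    have h2 := this.conj_mem y hy t⁻¹
    rwa [inv_inv] at h2
  have h2 := hw _ h1
  calc y * (t * w * t⁻¹) = t * (t⁻¹ * y * t * w) * t⁻¹ := by group
    _ = t * (w * (t⁻¹ * y * t)) * t⁻¹ := by rw [h2]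
    _ = t * w * t⁻¹ * y := by group

theorem comm_E (h : HypW T W) {g w : T} (hw : w ∈ W) : ⁅g, w⁆ ∈ W := by
  rw [commutatorElement_def]
  exact mul_mem (h.conj_mem' hw g) (inv_mem hw)

theorem b_comm_w0 (h : HypW T W) (hd : Dat W fe z w0) (hzb : b w0 z = 0) {g g' : T}
    (hg : g ∈ centralizer (ZZ T 2 : Set T)) (hg' : g' ∈ centralizer (ZZ T 2 : Set T)) (t t' : T) :
    b ⁅g, t * w0 * t⁻¹⁆ ⁅g', t' * w0 * t'⁻¹⁆ = 0 := by
  have m1 := h.conj_mem' hd.hw0 t
  have m2 := h.conj_mem' hd.hw0 t'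
  have m3 := h.conj_mem' m1 g
  have m4 := h.conj_mem' m2 g'
  have e1 : ⁅g, t * w0 * t⁻¹⁆ = (g * (t * w0 * t⁻¹) * g⁻¹) * (t * w0 * t⁻¹)⁻¹ := by rw [commutatorElement_def]
  have e2 : ⁅g', t' * w0 * t'⁻¹⁆ = (g' * (t' * w0 * t'⁻¹) * g'⁻¹) * (t' * w0 * t'⁻¹)⁻¹ := by rw [commutatorElement_def]
  rw [e1, e2, h.b_mul_left m3 (inv_mem m1) (mul_mem m4 (inv_mem m2)), h.b_mul_right m3 m4 (inv_mem m2),
    h.b_mul_right (inv_mem m1) m4 (inv_mem m2), h.b_inv_right m3 m2, h.b_inv_left m1 m4, h.b_inv_left m1 (inv_mem m2),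
    h.b_inv_right m1 m2]
  have e3 : g * (t * w0 * t⁻¹) * g⁻¹ = (g * t) * w0 * (g * t)⁻¹ := by group
  have e4 : g' * (t' * w0 * t'⁻¹) * g'⁻¹ = (g' * t') * w0 * (g' * t')⁻¹ := by group
  rw [e3, e4, b_cc, b_cc, b_cc, b_cc]
  have hn := E_normal (T := T)
  have k1 : t⁻¹ * g⁻¹ * t ∈ centralizer (ZZ T 2 : Set T) := by
    have := hn.conj_mem _ (inv_mem hg) t⁻¹
    rwa [inv_inv] at this
  have k2 : t⁻¹ * g' * t ∈ centralizer (ZZ T 2 : Set T) := by
    have := hn.conj_mem _ hg' t⁻¹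
    rwa [inv_inv] at this
  have h1 := h.beta_four hd hzb (t⁻¹ * t') k1 k2
  have i1 : t⁻¹ * g⁻¹ * t * (t⁻¹ * g' * t) * (t⁻¹ * t') = (g * t)⁻¹ * (g' * t') := by group
  have i2 : t⁻¹ * g⁻¹ * t * (t⁻¹ * t') = (g * t)⁻¹ * t' := by group
  have i3 : t⁻¹ * g' * t * (t⁻¹ * t') = t⁻¹ * (g' * t') := by group
  rw [i1, i2, i3] at h1
  rw [← h1]
  ring

theorem b_comm_E (h : HypW T W) (hd : Dat W fe z w0) (hzb : b w0 z = 0) {g g' : T}
    (hg : g ∈ centralizer (ZZ T 2 : Set T)) (hg' : g' ∈ centralizer (ZZ T 2 : Set T)) {u w : T}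
    (hu : u ∈ W) (hw : w ∈ W) : b ⁅g, u⁆ ⁅g', w⁆ = 0 := by
  have hmul : ∀ g a c : T, ⁅g, a * c⁆ = ⁅g, a⁆ * (a * ⁅g, c⁆ * a⁻¹) := by
    intro g a c
    rw [commutatorElement_def, commutatorElement_def, commutatorElement_def]; group
  have hinv : ∀ g a : T, ⁅g, a⁻¹⁆ = a⁻¹ * ⁅g, a⁆⁻¹ * a⁻¹⁻¹ := by
    intro g a
    rw [commutatorElement_def, commutatorElement_def]; group
  -- the subgroup of good elements on the right
  have right : ∀ x ∈ W, (∀ t' : T, b x ⁅g', t' * w0 * t'⁻¹⁆ = 0) → ∀ w ∈ W, b x ⁅g', w⁆ = 0 := by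
    intro x hx hgen
    let L : Subgroup T :=
      { carrier := {w | w ∈ W ∧ b x ⁅g', w⁆ = 0}
        mul_mem' := by
          rintro a c ⟨ha, ha'⟩ ⟨hc, hc'⟩
          refine ⟨mul_mem ha hc, ?_⟩
          rw [hmul, h.b_mul_right hx (h.comm_E ha) (h.conj_mem' (h.comm_E hc) a), h.b_conjW hx (h.comm_E hc) ha,
            ha', hc', add_zero]
        one_mem' := ⟨one_mem _, by
          rw [commutatorElement_one_right]
          exact h.b_F' (one_mem _) hx⟩
        inv_mem' := by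
          rintro a ⟨ha, ha'⟩
          refine ⟨inv_mem ha, ?_⟩
          rw [hinv, h.b_conjW hx (inv_mem (h.comm_E ha)) (inv_mem ha), h.b_inv_right hx (h.comm_E ha), ha'] }
    have hL : W ≤ L := by
      apply h.closure_eq hd
      · intro f hf
        refine ⟨F_le hf, ?_⟩
        apply h.b_F' _ hx
        rw [commutatorElement_def]
        exact mul_mem (h.F_normal.conj_mem f hf g') (inv_mem hf)
      · intro t
        exact ⟨h.conj_mem' hd.hw0 t, hgen t⟩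
    exact fun w hw => (hL hw).2
  let L : Subgroup T :=
    { carrier := {u | u ∈ W ∧ b ⁅g, u⁆ ⁅g', w⁆ = 0}
      mul_mem' := by
        rintro a c ⟨ha, ha'⟩ ⟨hc, hc'⟩
        refine ⟨mul_mem ha hc, ?_⟩
        rw [b_comm] at ha' hc' ⊢
        rw [hmul, h.b_mul_right (h.comm_E hw) (h.comm_E ha) (h.conj_mem' (h.comm_E hc) a),
          h.b_conjW (h.comm_E hw) (h.comm_E hc) ha, ha', hc', add_zero]
      one_mem' := ⟨one_mem _, by
        rw [commutatorElement_one_right]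
        exact h.b_F (one_mem _) (h.comm_E hw)⟩
      inv_mem' := by
        rintro a ⟨ha, ha'⟩
        refine ⟨inv_mem ha, ?_⟩
        rw [b_comm] at ha' ⊢
        rw [hinv, h.b_conjW (h.comm_E hw) (inv_mem (h.comm_E ha)) (inv_mem ha),
          h.b_inv_right (h.comm_E hw) (h.comm_E ha), ha'] }
  have hL : W ≤ L := by
    apply h.closure_eq hd
    · intro f hf
      refine ⟨F_le hf, ?_⟩
      apply h.b_F _ (h.comm_E hw)
      rw [commutatorElement_def]
      exact mul_mem (h.F_normal.conj_mem f hf g) (inv_mem hf)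
    · intro t
      refine ⟨h.conj_mem' hd.hw0 t, ?_⟩
      exact right _ (h.comm_E (h.conj_mem' hd.hw0 t)) (fun t' => h.b_comm_w0 hd hzb hg hg' t t') w hw
  exact (hL hu).2

end dat

end Cfsg.Agent.H92.U14.HypW
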