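import Cfsg.Agent.H92.U14c

/-!
# 2-groups of order at least `2^14` with small upper central series, final results (owner: helper92)
-/

set_option autoImplicit false
set_option linter.unusedSectionVars false

namespace Cfsg.Agent.H92.U14.HypW

open Subgroup
open scoped commutatorElement Pointwise

variable {T : Type*} [Group T] [Finite T] {W : Subgroup T}

/-- the subgroup `[E, W] F` -/
def K (W : Subgroup T) : Subgroup T :=
  closure ((F W : Set T) ∪ {x | ∃ g ∈ centralizer (ZZ T 2 : Set T), ∃ w ∈ W, x = ⁅g, w⁆})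

theorem K_le (h : HypW T W) : K W ≤ W := by
  unfold K
  rw [closure_le]
  rintro x (hx | ⟨g, hg, w, hw, rfl⟩)
  · exact F_le hx
  · exact h.comm_E hw

theorem F_le_K : F W ≤ K W := fun _ hx => subset_closure (Or.inl hx)

theorem comm_mem_K {g w : T} (hg : g ∈ centralizer (ZZ T 2 : Set T)) (hw : w ∈ W) : ⁅g, w⁆ ∈ K W :=
  subset_closure (Or.inr ⟨g, hg, w, hw, rfl⟩)

section dat

variable {fe : T → ZMod 2} {z w0 : T}

theorem b_K (h : HypW T W) (hd : Dat W fe z w0) (hzb : b w0 z = 0) {x y : T} (hx : x ∈ K W) (hy : y ∈ K W) :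
    b x y = 0 := by
  have step : ∀ x ∈ W, (∀ y ∈ ((F W : Set T) ∪ {x | ∃ g ∈ centralizer (ZZ T 2 : Set T), ∃ w ∈ W, x = ⁅g, w⁆}),
      b x y = 0) → ∀ y ∈ K W, b x y = 0 := by
    intro x hx hgen
    let L : Subgroup T :=
      { carrier := {y | y ∈ W ∧ b x y = 0}
        mul_mem' := by
          rintro a c ⟨ha, ha'⟩ ⟨hc, hc'⟩
          exact ⟨mul_mem ha hc, by rw [h.b_mul_right hx ha hc, ha', hc', add_zero]⟩
        one_mem' := ⟨one_mem _, h.b_F' (one_mem _) hx⟩
        inv_mem' := by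
          rintro a ⟨ha, ha'⟩
          exact ⟨inv_mem ha, by rw [h.b_inv_right hx ha, ha']⟩ }
    have hL : K W ≤ L := by
      unfold K
      rw [closure_le]
      intro y hy
      exact ⟨h.K_le (subset_closure hy), hgen y hy⟩
    exact fun y hy => (hL hy).2
  apply step x (h.K_le hx) _ y hy
  rintro y (hy | ⟨g, hg, w, hw, rfl⟩)
  · exact h.b_F' hy (h.K_le hx)
  · rw [b_comm]
    apply step _ (h.comm_E hw) _ x hx
    rintro x (hx | ⟨g', hg', w', hw', rfl⟩)
    · exact h.b_F' hx (h.comm_E hw)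
    · exact h.b_comm_E hd hzb hg hg' hw hw'

theorem exists_s (h : HypW T W) : ∃ s : T, s ∉ centralizer (ZZ T 2 : Set T) := by
  obtain ⟨z2, h2, h2'⟩ := h.toHyp.exists_z (n := 1) (by norm_num)
  simp only [Nat.reduceAdd] at h2
  by_contra hn
  push Not at hn
  apply h2'
  rw [ZZ, Subgroup.upperCentralSeries_one, mem_center_iff]
  intro g
  exact (mem_centralizer_iff.1 (hn g) z2 h2).symm

theorem K_index (h : HypW T W) (hd : Dat W fe z w0) : (K W).relIndex W ≤ 4 := by
  obtain ⟨s, hs⟩ := h.exists_s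
  have hcm : ∀ a ∈ W, ∀ c ∈ W, ⁅a, c⁆ ∈ K W := fun a ha c hc => F_le_K (h.comm_mem ha hc)
  have hKn : ((K W).subgroupOf W).Normal := by
    constructor
    intro k hk w
    rw [mem_subgroupOf] at hk ⊢
    have h1 : ((w * k * w⁻¹ : W) : T) = ⁅(w : T), (k : T)⁆ * k := by
      rw [commutatorElement_def]
      push_cast
      group
    rw [h1]
    exact mul_mem (hcm _ w.2 _ k.2) hk
  set Q := W ⧸ (K W).subgroupOf W
  have hsq : ∀ x : Q, x ^ 2 = 1 := by
    intro x
    obtain ⟨w, rfl⟩ := QuotientGroup.mk_surjective x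
    rw [← QuotientGroup.mk_pow, QuotientGroup.eq_one_iff, mem_subgroupOf]
    exact F_le_K (h.sq_mem w.2)
  set a : Q := QuotientGroup.mk ⟨w0, hd.hw0⟩ with ha
  set c : Q := QuotientGroup.mk ⟨s * w0 * s⁻¹, h.conj_mem' hd.hw0 s⟩ with hc
  have hcomm : ∀ x y : Q, x * y = y * x := by
    intro x y
    obtain ⟨u, rfl⟩ := QuotientGroup.mk_surjective x
    obtain ⟨v, rfl⟩ := QuotientGroup.mk_surjective y
    rw [← QuotientGroup.mk_mul, ← QuotientGroup.mk_mul, QuotientGroup.eq, mem_subgroupOf]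
    have h1 : (((u * v)⁻¹ * (v * u) : W) : T) = ⁅(v⁻¹ : T), (u⁻¹ : T)⁆ := by
      rw [commutatorElement_def]
      push_cast
      group
    rw [h1]
    exact hcm _ (inv_mem v.2) _ (inv_mem u.2)
  have hnorm : (zpowers c).Normal := by
    constructor
    intro x hx y
    rw [hcomm y x, mul_inv_cancel_right]
    exact hx
  have htop : zpowers a ⊔ zpowers c = ⊤ := by
    let L : Subgroup T := ((zpowers a ⊔ zpowers c).comap (QuotientGroup.mk' ((K W).subgroupOf W))).map W.subtype
    have hL : W ≤ L := by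
      apply h.closure_eq hd
      · intro f hf
        refine ⟨⟨f, F_le hf⟩, ?_, rfl⟩
        show (QuotientGroup.mk (⟨f, F_le hf⟩ : W) : Q) ∈ zpowers a ⊔ zpowers c
        rw [(QuotientGroup.eq_one_iff _).2 (mem_subgroupOf.2 (F_le_K hf))]
        exact one_mem _
      · intro t
        refine ⟨⟨t * w0 * t⁻¹, h.conj_mem' hd.hw0 t⟩, ?_, rfl⟩
        show (QuotientGroup.mk (⟨t * w0 * t⁻¹, h.conj_mem' hd.hw0 t⟩ : W) : Q) ∈ zpowers a ⊔ zpowers c
        by_cases ht : t ∈ centralizer (ZZ T 2 : Set T)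
        · have h1 : (QuotientGroup.mk (⟨t * w0 * t⁻¹, h.conj_mem' hd.hw0 t⟩ : W) : Q) = a := by
            rw [ha, eq_comm, QuotientGroup.eq, mem_subgroupOf]
            have h2 : (((⟨w0, hd.hw0⟩ : W)⁻¹ * ⟨t * w0 * t⁻¹, h.conj_mem' hd.hw0 t⟩ : W) : T)
                = w0⁻¹ * ⁅t, w0⁆ * w0 := by
              rw [commutatorElement_def]
              push_cast
              group
            rw [h2]
            have h3 := comm_mem_K ht hd.hw0
            have h4 : w0⁻¹ * ⁅t, w0⁆ * w0 = ⁅w0⁻¹, ⁅t, w0⁆⁆ * ⁅t, w0⁆ := by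
              generalize ⁅t, w0⁆ = q
              rw [commutatorElement_def]
              group
            rw [h4]
            exact mul_mem (hcm _ (inv_mem hd.hw0) _ (h.K_le h3)) h3
          rw [h1]
          exact mem_sup_left (mem_zpowers a)
        · have hts : t * s⁻¹ ∈ centralizer (ZZ T 2 : Set T) := by
            have h6 := h.mem_E_of (x := t⁻¹) (y := s⁻¹) (fun h7 => ht (inv_mem_iff.1 h7)) (fun h7 => hs (inv_mem_iff.1 h7))
            rwa [inv_inv] at h6
          have h1 : (QuotientGroup.mk (⟨t * w0 * t⁻¹, h.conj_mem' hd.hw0 t⟩ : W) : Q) = c := by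
            rw [hc, eq_comm, QuotientGroup.eq, mem_subgroupOf]
            have h2 : (((⟨s * w0 * s⁻¹, h.conj_mem' hd.hw0 s⟩ : W)⁻¹ * ⟨t * w0 * t⁻¹, h.conj_mem' hd.hw0 t⟩ : W) : T)
                = (s * w0 * s⁻¹)⁻¹ * ⁅t * s⁻¹, s * w0 * s⁻¹⁆ * (s * w0 * s⁻¹) := by
              rw [commutatorElement_def]
              push_cast
              group
            rw [h2]
            have h3 := comm_mem_K hts (h.conj_mem' hd.hw0 s)
            have h4 : (s * w0 * s⁻¹)⁻¹ * ⁅t * s⁻¹, s * w0 * s⁻¹⁆ * (s * w0 * s⁻¹) =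
                ⁅(s * w0 * s⁻¹)⁻¹, ⁅t * s⁻¹, s * w0 * s⁻¹⁆⁆ * ⁅t * s⁻¹, s * w0 * s⁻¹⁆ := by
              generalize ⁅t * s⁻¹, s * w0 * s⁻¹⁆ = q
              rw [commutatorElement_def]
              group
            rw [h4]
            exact mul_mem (hcm _ (inv_mem (h.conj_mem' hd.hw0 s)) _ (h.K_le h3)) h3
          rw [h1]
          exact mem_sup_right (mem_zpowers c)
    rw [eq_top_iff]
    intro x _
    obtain ⟨w, rfl⟩ := QuotientGroup.mk_surjective x
    obtain ⟨w', hw', hww⟩ := hL w.2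
    have : w' = w := Subtype.ext hww
    rw [← this]
    exact hw'
  have h2 : ∀ x : Q, Nat.card (zpowers x) ≤ 2 := by
    intro x
    rw [Nat.card_zpowers]
    exact Nat.le_of_dvd (by norm_num) (orderOf_dvd_of_pow_eq_one (hsq x))
  have h3 : Nat.card Q ≤ 2 * 2 := by
    calc Nat.card Q = Nat.card (⊤ : Subgroup Q) := (card_top).symm
      _ = Nat.card ((zpowers a ⊔ zpowers c : Subgroup Q) : Set Q) := by rw [htop]; rfl
      _ = Nat.card ((zpowers a : Set Q) * (zpowers c : Set Q) : Set Q) := by rw [mul_normal]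
      _ ≤ Nat.card (zpowers a) * Nat.card (zpowers c) := Set.natCard_mul_le
      _ ≤ 2 * 2 := Nat.mul_le_mul (h2 a) (h2 c)
  exact h3

end dat

theorem Z4_le (h : HypW T W) : ZZ T 4 ≤ W := by
  have := h.normal
  apply h.toHyp.step (n := 3) (by norm_num) h.Z3_le
  intro h1
  have h2 := h.orders.2.2.2.2.1
  rw [h1, h.toHyp.card_Z (by norm_num)] at h2
  norm_num at h2

/-- the elements of `Z₄` outside `Z₃` do not centralise `W` -/
theorem not_central (h : HypW T W) {z : T} (hz : z ∈ ZZ T 4) (hz' : z ∉ ZZ T 3) :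
    ¬ ∀ w ∈ W, z * w = w * z := by
  intro hcen
  have hzW := h.Z4_le hz
  obtain ⟨fe, hf⟩ := h.exists_fun hzW (by rw [h.orders.2.2.1]; exact hz')
  obtain ⟨w0, hw0, h1, h0⟩ := h.exists_w0 hz hf
  have hd : Dat W fe z w0 := ⟨hz, hzW, hf, hw0, h1, h0⟩
  have hzb : b w0 z = 0 := by
    unfold b
    rw [commutatorElement_eq_one_iff_mul_comm.2 (hcen w0 hw0).symm, chi_one]
  have hK := h.K_index hd
  obtain ⟨z3, h3, h3'⟩ := h.toHyp.exists_z (n := 2) (by norm_num)
  simp only [Nat.reduceAdd] at h3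
  have h3F : z3 ∈ F W := by rw [h.orders.2.2.1]; exact h3
  have hYn : ((ZZ T 2).subgroupOf (K W)).Normal := inferInstance
  obtain ⟨U, -, hφU, hU⟩ := exists_sep ((ZZ T 2).subgroupOf (K W)) (n := 4)
    (fun a c => by
      rw [mem_subgroupOf]
      have h4 := h.b_K hd hzb a.2 c.2
      unfold b chi at h4
      show ⁅(a : T), (c : T)⁆ ∈ ZZ T 2
      by_contra hn
      rw [if_neg hn] at h4
      exact absurd h4 (by decide)) (by norm_num)
    (fun k => by
      rw [mem_subgroupOf]
      have h4 := h.F_sq (h.sq_mem (h.K_le k.2))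
      rw [← pow_mul] at h4
      have h5 : ((k ^ 4 : K W) : T) = 1 := h4
      rw [h5]
      exact one_mem _) (φ := ⟨z3, F_le_K h3F⟩) (fun h4 => h3' (mem_subgroupOf.1 h4))
  have h5 : (U.map (K W).subtype).relIndex W ≤ 16 := by
    have h6 : (U.map (K W).subtype).relIndex (K W) * (K W).relIndex W = (U.map (K W).subtype).relIndex W :=
      relIndex_mul_relIndex _ _ _ (map_subtype_le U) h.K_le
    have h7 : (U.map (K W).subtype).relIndex (K W) = U.index := by
      unfold relIndex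
      congr 1
      exact comap_map_eq_self_of_injective (K W).subtype_injective U
    rw [← h6, h7]
    calc U.index * (K W).relIndex W ≤ 4 * 4 := Nat.mul_le_mul hU hK
      _ = 16 := by norm_num
  obtain ⟨x, hx, hxz⟩ := h.le_of_index h5 h3F
  apply hφU
  have : x = ⟨z3, F_le_K h3F⟩ := Subtype.ext hxz
  rwa [← this]

theorem card_center (h : HypW T W) : (center W).map W.subtype = ZZ T 3 := by
  have := h.normal
  have hn : ((center W).map W.subtype).Normal := inferInstance
  have hle : ZZ T 3 ≤ (center W).map W.subtype := by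
    intro x hx
    rw [← h.orders.2.2.1] at hx
    refine ⟨⟨x, F_le hx⟩, ?_, rfl⟩
    rw [SetLike.mem_coe, mem_center_iff]
    intro y
    exact Subtype.ext (h.F_central hx y.2).symm
  by_contra hne
  have h1 := h.toHyp.step (n := 3) (by norm_num) hle hne
  obtain ⟨z, hz, hz'⟩ := h.toHyp.exists_z (n := 3) (by norm_num)
  simp only [Nat.reduceAdd] at hz h1
  apply h.not_central hz hz'
  intro w hw
  obtain ⟨y, hy, hyz⟩ := h1 hz
  rw [← hyz]
  exact (congrArg Subtype.val (mem_center_iff.1 hy ⟨w, hw⟩)).symm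

end Cfsg.Agent.H92.U14.HypW
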