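import Mathlib
import Cfsg.Agent.H92.U14d

/-!
# Odd order automorphisms and subgroups isomorphic to `W` (owner: helper92)
-/

set_option autoImplicit false
set_option linter.unusedSectionVars false

namespace Cfsg.Agent.H92.U14

open Subgroup
open scoped commutatorElement

variable {T : Type*} [Group T] [Finite T]

/-- an automorphism of odd order of a `2`-group fixing `v⁻¹ α(v)` fixes `v` -/
theorem fix_of {α : MulAut T} {m : ℕ} (hT : IsPGroup 2 T) (hm : Odd m) (hα : α ^ m = 1) {v y : T}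
    (hv : α v = v * y) (hy : α y = y) : y = 1 := by
  have h1 : ∀ k : ℕ, (α ^ k) v = v * y ^ k := by
    intro k
    induction k with
    | zero => simp
    | succ k ih =>
      rw [pow_succ', MulAut.mul_apply, ih, map_mul, map_pow, hy, hv, pow_succ', mul_assoc]
  have h2 := h1 m
  rw [hα] at h2
  have h3 : y ^ m = 1 := by
    have h4 : v * y ^ m = v * 1 := by
      rw [← h2, mul_one]
      rfl
    exact mul_left_cancel h4
  obtain ⟨k, hk⟩ := hT y
  have h5 : orderOf y ∣ Nat.gcd m (2 ^ k) := Nat.dvd_gcd (orderOf_dvd_of_pow_eq_one h3) (orderOf_dvd_of_pow_eq_one hk)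
  have h6 : Nat.gcd m (2 ^ k) = 1 := Nat.Coprime.pow_right k (Nat.coprime_two_right.2 hm)
  rw [h6, Nat.dvd_one, orderOf_eq_one_iff] at h5
  exact h5

namespace Hyp

theorem map_ZZ (α : MulAut T) {n : ℕ} {x : T} (hx : x ∈ ZZ T n) : α x ∈ ZZ T n := by
  have hch : (ZZ T n).Characteristic := inferInstance
  have h1 := hch.fixed α
  rw [← h1] at hx
  exact hx

theorem fix_Z (h : Hyp T) {α : MulAut T} {m : ℕ} (hm : Odd m) (hα : α ^ m = 1) {n : ℕ} (hn : n ≤ 4) :
    ∀ x ∈ ZZ T n, α x = x := by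
  induction n with
  | zero =>
    intro x hx
    rw [ZZ_zero, mem_bot] at hx
    rw [hx, map_one]
  | succ n ih =>
    intro x hx
    have ih' := ih (by omega)
    by_cases hxn : x ∈ ZZ T n
    · exact ih' x hxn
    · have hax : α x ∈ ZZ T (n + 1) := map_ZZ α hx
      have hax' : α x ∉ ZZ T n := by
        intro h1
        have h2 := map_ZZ α⁻¹ h1
        rw [MulAut.inv_apply_self] at h2
        exact hxn h2
      have h1 : x⁻¹ * α x ∈ ZZ T n :=
        h.mul_mem_Z (by omega) (inv_mem hx) hax (fun h2 => hxn (inv_mem_iff.1 h2)) hax'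
      have h2 : α x = x * (x⁻¹ * α x) := by group
      have h3 := fix_of h.p hm hα h2 (ih' _ h1)
      rw [h2, h3, mul_one]

end Hyp

namespace HypW

variable {W : Subgroup T}

theorem fix_quot (h : HypW T W) {α : MulAut T} {m : ℕ} (hm : Odd m) (hα : α ^ m = 1) (t : T) :
    t⁻¹ * α t ∈ W := by
  have key : ∀ z ∈ ZZ T 3, z * (t⁻¹ * α t) = t⁻¹ * α t * z := by
    intro z hz
    have h1 : α z = z := h.toHyp.fix_Z hm hα (by norm_num) z hz
    have h2 : α (t * z * t⁻¹) = t * z * t⁻¹ := by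
      apply h.toHyp.fix_Z hm hα (n := 3) (by norm_num)
      have : (ZZ T 3).Normal := inferInstance
      exact this.conj_mem z hz t
    rw [map_mul, map_mul, map_inv, h1] at h2
    have h3 : t⁻¹ * (α t * z * (α t)⁻¹) * α t = t⁻¹ * (t * z * t⁻¹) * α t := by rw [h2]
    calc z * (t⁻¹ * α t) = t⁻¹ * (t * z * t⁻¹) * α t := by group
      _ = t⁻¹ * (α t * z * (α t)⁻¹) * α t := h3.symm
      _ = t⁻¹ * α t * z := by group
  rw [h.w, mem_centralizer_iff]
  exact key

theorem map_W (h : HypW T W) (α : MulAut T) {w : T} (hw : w ∈ W) : α w ∈ W := by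
  rw [h.w, mem_centralizer_iff] at hw ⊢
  intro z hz
  have h1 := hw (α⁻¹ z) (Hyp.map_ZZ α⁻¹ hz)
  have h2 := congrArg α h1
  rw [map_mul, map_mul, MulAut.apply_inv_self] at h2
  exact h2

theorem fix_W (h : HypW T W) {α : MulAut T} {m : ℕ} (hm : Odd m) (hα : α ^ m = 1) :
    ∀ v ∈ W, α v = v := by
  have hFn := h.F_normal
  have hF3 : F W = ZZ T 3 := h.orders.2.2.1
  let π : T →* T ⧸ F W := QuotientGroup.mk' (F W)
  have hπ : ∀ x, π x = 1 ↔ x ∈ F W := fun x => QuotientGroup.eq_one_iff x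
  have hcomm : ∀ a ∈ W, ∀ c ∈ W, π a * π c = π c * π a := by
    intro a ha c hc
    have h1 : π ⁅a, c⁆ = 1 := (hπ _).2 (h.comm_mem ha hc)
    rw [map_commutatorElement, commutatorElement_eq_one_iff_mul_comm] at h1
    exact h1
  let N : Subgroup T :=
    { carrier := {w | ∃ v ∈ W, π w = π (α v) * (π v)⁻¹}
      one_mem' := ⟨1, one_mem _, by simp⟩
      mul_mem' := by
        rintro w₁ w₂ ⟨v₁, h₁, e₁⟩ ⟨v₂, h₂, e₂⟩
        refine ⟨v₁ * v₂, mul_mem h₁ h₂, ?_⟩
        rw [map_mul, e₁, e₂, map_mul, map_mul, map_mul, mul_inv_rev]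
        have c1 := hcomm _ (inv_mem h₁) _ (h.map_W α h₂)
        have c2 := hcomm _ (inv_mem h₁) _ (inv_mem h₂)
        rw [map_inv] at c1 c2
        rw [map_inv] at c2
        calc π (α v₁) * (π v₁)⁻¹ * (π (α v₂) * (π v₂)⁻¹)
            = π (α v₁) * ((π v₁)⁻¹ * π (α v₂)) * (π v₂)⁻¹ := by group
          _ = π (α v₁) * π (α v₂) * ((π v₁)⁻¹ * (π v₂)⁻¹) := by rw [c1]; group
          _ = _ := by rw [c2]
      inv_mem' := by
        rintro w ⟨v, hv, e⟩
        refine ⟨v⁻¹, inv_mem hv, ?_⟩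
        rw [map_inv, e, mul_inv_rev, inv_inv, map_inv, map_inv, map_inv, inv_inv]
        have c1 := hcomm _ hv _ (inv_mem (h.map_W α hv))
        rw [map_inv] at c1
        exact c1 }
  have hmemN : ∀ w, w ∈ N ↔ ∃ v ∈ W, π w = π (α v) * (π v)⁻¹ := fun w => Iff.rfl
  have hNn : N.Normal := by
    constructor
    intro w hw t
    rw [hmemN] at hw ⊢
    obtain ⟨v, hv, e⟩ := hw
    refine ⟨t * v * t⁻¹, h.normal.conj_mem v hv t, ?_⟩
    have hu := h.fix_quot hm hα t
    have c1 := hcomm _ hu _ (h.map_W α hv)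
    have e1 : α t = t * (t⁻¹ * α t) := by group
    set u := t⁻¹ * α t with hudef
    simp only [map_mul, map_inv, e1]
    rw [e]
    have c2 : π u * π (α v) * (π u)⁻¹ = π (α v) := by rw [c1]; group
    calc π t * (π (α v) * (π v)⁻¹) * (π t)⁻¹
        = π t * π (α v) * (π t)⁻¹ * (π t * π v * (π t)⁻¹)⁻¹ := by group
      _ = π t * (π u * π (α v) * (π u)⁻¹) * (π t)⁻¹ * (π t * π v * (π t)⁻¹)⁻¹ := by rw [c2]
      _ = _ := by group
  have hFN : ZZ T 3 ≤ N := by
    intro x hx
    rw [← hF3] at hx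
    exact ⟨1, one_mem _, by rw [(hπ x).2 hx]; simp⟩
  have hNeq : N = ZZ T 3 := by
    by_contra hne
    have h4 := h.toHyp.step (n := 3) (by norm_num) hFN hne
    obtain ⟨z, hz, hz'⟩ := h.toHyp.exists_z (n := 3) (by norm_num)
    simp only [Nat.reduceAdd] at hz h4
    obtain ⟨v, hv, e⟩ := (hmemN z).1 (h4 hz)
    -- `α v = v * y` with `y` fixed by `α`
    have hy : z⁻¹ * (v⁻¹ * α v) ∈ ZZ T 3 := by
      rw [← hF3, ← hπ]
      have c1 := hcomm _ (inv_mem hv) _ (h.map_W α hv)
      rw [map_inv] at c1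
      rw [map_mul, map_mul, map_inv, map_inv, e, c1]
      group
    have hz4 : α z = z := h.toHyp.fix_Z hm hα le_rfl z hz
    have hy3 := h.toHyp.fix_Z hm hα (n := 3) (by norm_num) _ hy
    have h5 : α v = v * (v⁻¹ * α v) := by group
    have h6 : v⁻¹ * α v = z * (z⁻¹ * (v⁻¹ * α v)) := by group
    have h7 : α (v⁻¹ * α v) = v⁻¹ * α v := by
      rw [h6, map_mul, hz4, hy3]
    have h8 := fix_of h.p hm hα h5 h7
    rw [h8, mul_one] at hy
    exact hz' (inv_mem_iff.1 hy)
  intro v hv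
  have h1 : v⁻¹ * α v ∈ ZZ T 3 := by
    rw [← hNeq, hmemN]
    refine ⟨v, hv, ?_⟩
    have c1 := hcomm _ (inv_mem hv) _ (h.map_W α hv)
    rw [map_inv] at c1
    rw [map_mul, map_inv, c1]
  have h2 : α v = v * (v⁻¹ * α v) := by group
  have h3 := fix_of h.p hm hα h2 (h.toHyp.fix_Z hm hα (n := 3) (by norm_num) _ h1)
  rw [h2, h3, mul_one]

/-- `T` has no automorphisms of odd order -/
theorem aut_eq_one (h : HypW T W) {α : MulAut T} {m : ℕ} (hm : Odd m) (hα : α ^ m = 1) : α = 1 := by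
  ext t
  have h2 : α t = t * (t⁻¹ * α t) := by group
  have h3 := fix_of h.p hm hα h2 (h.fix_W hm hα _ (h.fix_quot hm hα t))
  rw [MulAut.one_apply, h2, h3, mul_one]

/-- every subgroup isomorphic to `W` is `W` -/
theorem eq_of_equiv (h : HypW T W) {W1 : Subgroup T} (e : W ≃* W1) : W1 = W := by
  have hWn := h.normal
  have hcW : Nat.card W1 = Nat.card W := (Nat.card_congr e.toEquiv).symm
  -- the image of the Frattini subgroup
  let F1 : Subgroup T := ((frattini W).map e.toMonoidHom).map W1.subtype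
  have hF1 : ∀ U : Subgroup T, U.relIndex W1 ≤ 16 → F1 ≤ U := by
    intro U hU
    have h1 : ((U.subgroupOf W1).comap e.toMonoidHom).index ≤ 16 := by
      rw [index_comap_of_surjective _ e.surjective]
      exact hU
    have h2 := h.sub _ h1
    rintro _ ⟨_, ⟨x, hx, rfl⟩, rfl⟩
    exact mem_subgroupOf.1 (mem_comap.1 (h2 hx))
  have hcF1 : Nat.card F1 = Nat.card (F W) := by
    rw [card_map_of_injective W1.subtype_injective, card_map_of_injective e.injective, card_F]
  have hcen : ∀ f ∈ F1, ∀ w ∈ W1, f * w = w * f := by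
    rintro _ ⟨_, ⟨x, hx, rfl⟩, rfl⟩ w hw
    have h1 : (x : T) * (e.symm ⟨w, hw⟩ : W) = (e.symm ⟨w, hw⟩ : W) * x :=
      h.F_central (mem_F.2 hx) (e.symm ⟨w, hw⟩).2
    have h2 : x * (e.symm ⟨w, hw⟩ : W) = (e.symm ⟨w, hw⟩ : W) * x := Subtype.ext h1
    have h3 := congrArg e h2
    rw [map_mul, map_mul, e.apply_symm_apply] at h3
    exact congrArg Subtype.val h3
  have hX : (W ⊓ W1).relIndex W1 ≤ 8 := by
    rw [inf_relIndex_right, ← h.orders.1]
    exact Nat.le_of_dvd (Nat.pos_of_ne_zero index_ne_zero_of_finite) (relIndex_dvd_index_of_normal W W1)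
  have hFX : F1 ≤ W ⊓ W1 := hF1 _ (by omega)
  have hle : F1 ≤ F W := by
    intro φ hφ
    by_contra hn
    let X := W ⊓ W1
    have hYn : ((F W).subgroupOf X).Normal := by
      have := h.F_normal
      infer_instance
    obtain ⟨U, -, hφU, hU⟩ := exists_sep ((F W).subgroupOf X) (n := 2)
      (fun a c => by
        rw [mem_subgroupOf]
        exact h.comm_mem a.2.1 c.2.1) (by norm_num)
      (fun k => by
        rw [mem_subgroupOf]
        exact h.sq_mem k.2.1) (φ := ⟨φ, hFX hφ⟩) (fun h4 => hn (mem_subgroupOf.1 h4))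
    have h5 : (U.map X.subtype).relIndex W1 ≤ 16 := by
      have h6 : (U.map X.subtype).relIndex X * X.relIndex W1 = (U.map X.subtype).relIndex W1 :=
        relIndex_mul_relIndex _ _ _ (map_subtype_le U) inf_le_right
      have h7 : (U.map X.subtype).relIndex X = U.index := by
        unfold relIndex
        congr 1
        exact comap_map_eq_self_of_injective X.subtype_injective U
      rw [← h6, h7]
      calc U.index * X.relIndex W1 ≤ 2 * 8 := Nat.mul_le_mul hU hX
        _ = 16 := by norm_num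
    obtain ⟨x, hx, hxz⟩ := hF1 _ h5 hφ
    apply hφU
    have : x = ⟨φ, hFX hφ⟩ := Subtype.ext hxz
    rwa [← this]
  have hEq : F1 = F W := eq_of_le_of_card_ge hle hcF1.ge
  have hW1 : W1 ≤ W := by
    intro w hw
    rw [h.w, mem_centralizer_iff]
    intro z hz
    have hz' : z ∈ ZZ T 3 := hz
    rw [← h.orders.2.2.1, ← hEq] at hz'
    exact hcen z hz' w hw
  exact eq_of_le_of_card_ge hW1 hcW.ge

end HypW

end Cfsg.Agent.H92.U14
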